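import Cfsg.Agent.Lib.Suzuki.Iso
import Cfsg.Prelude.Def_KGroupFacts

/-! The automorphism group of the Suzuki group: every automorphism is an inner automorphism
followed by a field automorphism, and `Out ≅ Aut F`. -/

set_option autoImplicit false
set_option linter.unusedSectionVars false
set_option linter.deprecated false
set_option linter.unusedSimpArgs false

namespace Cfsg.Agent.Lib.Suzuki.Aut

open Cfsg.Agent.Lib.Suzuki.Basic Cfsg.Agent.Lib.Suzuki.Group Cfsg.Agent.Lib.Suzuki.Struct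
  Cfsg.Agent.Lib.Suzuki.Order Cfsg.Agent.Lib.Suzuki.Zass Cfsg.Agent.Lib.Suzuki.Sub
  Cfsg.Agent.Lib.Suzuki.Syl Cfsg.Agent.Lib.Suzuki.Gen Cfsg.Agent.Lib.Suzuki.Fix
  Cfsg.Agent.Lib.Suzuki.Types Cfsg.Agent.Lib.Suzuki.Iso

variable {F : Type*} [Field F] [Fintype F] {m : ℕ} (h : Hyp F m)

/-! ### Field twists -/

omit [Fintype F] in
theorem Lm_map (φ : F ≃+* F) (a b : F) :
    (Lm m a b).map φ = Lm m (φ a) (φ b) := by
  have e0 : φ (fz m a b) = fz m (φ a) (φ b) := by
    simp [fz, map_add, map_mul, map_pow]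
  ext i j
  fin_cases i <;> fin_cases j <;> simp [Lm, e0, map_add, map_mul, map_pow]

omit [Fintype F] in
theorem Dm_map (φ : F ≃+* F) (k : F) : (Dm m k).map φ = Dm m (φ k) := by
  ext i j
  fin_cases i <;> fin_cases j <;> simp [Dm, map_mul, map_pow, map_inv₀]

omit [Fintype F] in
theorem Tm_map (φ : F ≃+* F) : (Tm F).map φ = Tm F := by
  ext i j
  fin_cases i <;> fin_cases j <;> simp [Tm]

include h

/-- The twist of an element of `SL₄` by a field automorphism preserves the group. -/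
theorem map_mem (φ : F ≃+* F) (g : G F m) :
    Matrix.SpecialLinearGroup.map (φ : F →+* F) g.1 ∈ Cfsg.Sz F m := by
  have hL : ∀ a b : F, Matrix.SpecialLinearGroup.map (φ : F →+* F) (Lg h a b).1 = (Lg h (φ a) (φ b)).1 := by
    intro a b
    apply Subtype.ext
    exact Lm_map φ a b
  have hD : ∀ k : Fˣ, Matrix.SpecialLinearGroup.map (φ : F →+* F) (Dg h k).1 =
      (Dg h (Units.map (φ : F →* F) k)).1 := by
    intro k
    apply Subtype.ext
    exact Dm_map φ (k : F)
  have hT : Matrix.SpecialLinearGroup.map (φ : F →+* F) (Tg h).1 = (Tg h).1 := by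
    apply Subtype.ext
    exact Tm_map φ
  rcases bruhat h g with ⟨a, b, k, rfl⟩ | ⟨a, b, c, d, k, rfl⟩
  · rw [Subgroup.coe_mul, map_mul, hL, hD]
    exact mul_mem (Lg h _ _).2 (Dg h _).2
  · rw [Subgroup.coe_mul, Subgroup.coe_mul, Subgroup.coe_mul, map_mul, map_mul, map_mul, hL, hL, hD, hT]
    exact mul_mem (mul_mem (Lg h _ _).2 (Tg h).2) (mul_mem (Lg h _ _).2 (Dg h _).2)

/-- The twist as a homomorphism. -/
noncomputable def twistHom (φ : F ≃+* F) : G F m →* G F m where
  toFun g := ⟨Matrix.SpecialLinearGroup.map (φ : F →+* F) g.1, map_mem h φ g⟩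
  map_one' := by
    apply Subtype.ext
    exact map_one _
  map_mul' x y := by
    apply Subtype.ext
    exact map_mul _ _ _

theorem mat_twistHom (φ : F ≃+* F) (g : G F m) : mat (twistHom h φ g) = (mat g).map φ := rfl

/-- The twist as an automorphism. -/
noncomputable def twist (φ : F ≃+* F) : G F m ≃* G F m where
  toFun := twistHom h φ
  invFun := twistHom h φ.symm
  left_inv g := by
    apply Subtype.ext
    apply Subtype.ext
    change (mat (twistHom h φ.symm (twistHom h φ g))) = mat g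
    rw [mat_twistHom, mat_twistHom]
    ext i j
    simp
  right_inv g := by
    apply Subtype.ext
    apply Subtype.ext
    change (mat (twistHom h φ (twistHom h φ.symm g))) = mat g
    rw [mat_twistHom, mat_twistHom]
    ext i j
    simp
  map_mul' := map_mul _

theorem twist_Lg (φ : F ≃+* F) (a b : F) : twist h φ (Lg h a b) = Lg h (φ a) (φ b) := by
  apply Subtype.ext
  apply Subtype.ext
  exact Lm_map φ a b

theorem twist_Dg (φ : F ≃+* F) (k : Fˣ) :
    twist h φ (Dg h k) = Dg h (Units.map (φ : F →* F) k) := by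
  apply Subtype.ext
  apply Subtype.ext
  exact Dm_map φ (k : F)

theorem twist_Tg (φ : F ≃+* F) : twist h φ (Tg h) = Tg h := by
  apply Subtype.ext
  apply Subtype.ext
  exact Tm_map φ

/-- The map `G → G` on the group level is determined on generators. -/
theorem eq_of_generators (α β : G F m ≃* G F m) (hL : ∀ a b : F, α (Lg h a b) = β (Lg h a b))
    (hD : ∀ k : Fˣ, α (Dg h k) = β (Dg h k)) (hT : α (Tg h) = β (Tg h)) : α = β := by
  apply MulEquiv.ext
  intro g
  rcases bruhat h g with ⟨a, b, k, rfl⟩ | ⟨a, b, c, d, k, rfl⟩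
  · rw [map_mul, map_mul, hL, hD]
  · simp only [map_mul, hL, hD, hT]

/-- Twisting is inner only for the trivial field automorphism. -/
theorem twist_inner (φ : F ≃+* F) (x : G F m) (he : ∀ y, twist h φ y = x * y * x⁻¹) :
    φ = RingEquiv.refl F := by
  have hx : x * Lg h 1 0 = Lg h 1 0 * x := by
    have h1 := he (Lg h 1 0)
    rw [twist_Lg, map_one, map_zero] at h1
    have : x * Lg h 1 0 * x⁻¹ * x = Lg h 1 0 * x := by rw [← h1]
    simpa using this
  obtain ⟨c, d, rfl⟩ := mem_U_of_comm h (Or.inl one_ne_zero) hx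
  have hT : Lg h c d * Tg h = Tg h * Lg h c d := by
    have h1 := he (Tg h)
    rw [twist_Tg] at h1
    have : Lg h c d * Tg h * (Lg h c d)⁻¹ * Lg h c d = Tg h * Lg h c d := by rw [← h1]
    simpa using this
  have hfix : Lg h c d • (oA 0 0 : Om F m) = oA 0 0 := by
    have e1 : (oA 0 0 : Om F m) = Tg h • oI := (Tg_oI h).symm
    rw [e1, ← mul_smul, hT, mul_smul, Lg_oI h]
  obtain ⟨rfl, rfl⟩ := Lg_fix_oA h hfix
  rw [Lg_zero h] at he
  apply RingEquiv.ext
  intro a
  have h1 := he (Lg h a 0)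
  rw [twist_Lg, one_mul, inv_one, mul_one] at h1
  exact (Lg_inj h h1).1

/-- `T L(0,b) T` in Bruhat form: the first factor and the diagonal part are determined. -/
theorem first_factor {b a' b' c' d' : F} {k : Fˣ} (hb : b ≠ 0)
    (he : Tg h * Lg h 0 b * Tg h = Lg h a' b' * Tg h * (Lg h c' d' * Dg h k)) :
    a' = b / b ^ (2 ^ (m + 1)) ∧ b' = 0 ∧ (k : F) ^ (2 ^ m) * k = b ^ (2 ^ (m + 1)) := by
  have hfz : fz m (0 : F) b = b ^ (2 ^ (m + 1)) := by
    rw [fz_def, zero_pow (by norm_num)]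
    simp
  have hne : fz m (0 : F) b ≠ 0 := by
    rw [hfz]
    exact pow_ne_zero _ hb
  have h1 := entry_TLT h (0 : F) b
  rw [he, entry_LTLD h, hfz] at h1
  have h2 : (Tg h * Lg h 0 b * Tg h) • (oI : Om F m) =
      (Lg h a' b' * Tg h * (Lg h c' d' * Dg h k)) • (oI : Om F m) := by rw [he]
  simp only [mul_smul] at h2
  rw [Dg_oI h, Lg_oI h, Tg_oI h, Lg_oA h, Lg_oA h, Tg_oA h _ _ (by simpa using hne)] at h2
  simp only [zero_add, mul_zero, add_zero, zero_div] at h2
  rw [hfz] at h2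
  obtain ⟨e1, e2⟩ := oA_inj h2
  exact ⟨e1.symm, e2.symm, h1⟩

/-- Existence of the Bruhat form with prescribed `k`. -/
theorem decomp_of {b : F} (k : Fˣ) (hb : b ^ (2 ^ (m + 1)) = (k : F) ^ (2 ^ m) * k) :
    ∃ c' d' : F, Tg h * Lg h 0 b * Tg h =
      Lg h (b / b ^ (2 ^ (m + 1))) 0 * Tg h * (Lg h c' d' * Dg h k) := by
  have hne : (k : F) ^ (2 ^ m) * k ≠ 0 := mul_ne_zero (pow_ne_zero _ k.ne_zero) k.ne_zero
  have hb0 : b ≠ 0 := by
    rintro rfl
    rw [zero_pow (by positivity)] at hb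
    exact hne hb.symm
  have hfz : fz m (0 : F) b = b ^ (2 ^ (m + 1)) := by
    rw [fz_def, zero_pow (by norm_num)]
    simp
  rcases bruhat h (Tg h * Lg h 0 b * Tg h) with ⟨a, b', k', he⟩ | ⟨a, b', c', d', k', he⟩
  · have h1 := entry_TLT h (0 : F) b
    rw [he, entry_LD h, hfz, hb] at h1
    exact absurd h1.symm hne
  · obtain ⟨e1, e2, e3⟩ := first_factor h hb0 he
    rw [hb] at e3
    have : k' = k := Units.ext (pow_r_mul_self_inj h e3)
    subst this
    subst e1 e2
    exact ⟨c', d', he⟩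

/-! ### Reduction of an arbitrary automorphism -/

/-- `β` preserves `U`. -/
def StableU (β : G F m ≃* G F m) : Prop := ∀ y, β y ∈ Usub h ↔ y ∈ Usub h

omit [Fintype F] h in
theorem conj_apply' (x y : G F m) : MulAut.conj x y = x * y * x⁻¹ := rfl

omit [Fintype F] h in
theorem mul_apply' (β γ : G F m ≃* G F m) (y : G F m) :
    (MulAut.conj (1 : G F m) * β * γ) y = β (γ y) := by
  simp

theorem stableU_of_le (β : G F m ≃* G F m) (hβ : ∀ u ∈ Usub h, β u ∈ Usub h) : StableU h β := by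
  intro y
  refine ⟨fun hy => ?_, hβ y⟩
  let f : Usub h → Usub h := fun u => ⟨β u, hβ u u.2⟩
  have hinj : Function.Injective f := fun u v he =>
    Subtype.ext (β.injective (congrArg Subtype.val he))
  obtain ⟨u, hu⟩ := (Finite.injective_iff_surjective.mp hinj) ⟨β y, hy⟩
  have : (u : G F m) = y := β.injective (congrArg Subtype.val hu)
  rw [← this]
  exact u.2

theorem stable_conj (x : G F m) (hx : x ∈ Bor F m) (β : G F m ≃* G F m) (hU : StableU h β) :
    StableU h (MulAut.conj x * β) := by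
  apply stableU_of_le
  intro u hu
  exact Bor_conj_U h hx ((hU u).mpr hu)

theorem Bor_stable (β : G F m ≃* G F m) (hU : StableU h β) {y : G F m} (hy : y ∈ Bor F m) :
    β y ∈ Bor F m := by
  rw [← normalizer_U h] at hy ⊢
  rw [Subgroup.mem_normalizer_iff] at hy ⊢
  intro n
  obtain ⟨n', rfl⟩ := β.surjective n
  have e : β y * β n' * (β y)⁻¹ = β (y * n' * y⁻¹) := by simp
  rw [e, hU, hU]
  exact hy n'

/-- First step: make `U` invariant. -/
theorem step1 (α : G F m ≃* G F m) : ∃ x : G F m, StableU h (MulAut.conj x⁻¹ * α) := by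
  have hc : Nat.card ((Usub h).map α.toMonoidHom) = Nat.card (Usub h) :=
    Nat.card_congr (α.subgroupMap (Usub h)).symm.toEquiv
  let P : Sylow 2 (G F m) := Sylow.ofCard ((Usub h).map α.toMonoidHom) (by
    rw [hc, factorization_card h, card_Usub h, h.hF]
    ring)
  obtain ⟨x, hx⟩ := exists_conj h P
  refine ⟨x, stableU_of_le h _ ?_⟩
  intro u hu
  have h1 : α u ∈ (P : Subgroup (G F m)) := ⟨u, hu, rfl⟩
  rw [hx] at h1
  obtain ⟨u', hu', he⟩ := h1
  have e : (MulAut.conj x⁻¹ * α) u = u' := by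
    have h2 : x * u' * x⁻¹ = α u := he
    change x⁻¹ * α u * x⁻¹⁻¹ = u'
    rw [← h2]
    group
  rw [e]
  exact hu'

/-- `D` as a homomorphism. -/
noncomputable def dHom : Fˣ →* G F m where
  toFun := Dg h
  map_one' := Dg_one h
  map_mul' := fun k l => (Dg_mul h k l).symm

theorem Dg_ne_of_mem_U {k : Fˣ} (hk : k ≠ 1) : Dg h k ∉ Usub h := by
  rintro ⟨c, d, he⟩
  have h0 : Dg h k • (oA 0 0 : Om F m) = oA 0 0 := by
    rw [Dg_oA h]
    simp
  rw [he] at h0
  obtain ⟨rfl, rfl⟩ := Lg_fix_oA h h0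
  rw [Lg_zero h, ← Dg_one h] at he
  exact hk (Dg_inj h he)

/-- Second step: make `D` invariant. -/
theorem step2 (β : G F m ≃* G F m) (hU : StableU h β) :
    ∃ v : G F m, v ∈ Bor F m ∧ StableU h (MulAut.conj v⁻¹ * β) ∧
      ∀ c : Fˣ, (MulAut.conj v⁻¹ * β) (Dg h c) ∈ Dsub h := by
  obtain ⟨k₀, hk₀⟩ := IsCyclic.exists_generator (α := Fˣ)
  have hk₀1 : k₀ ≠ 1 := by
    obtain ⟨k, hk⟩ := exists_unit_ne_one h
    rintro rfl
    obtain ⟨n, rfl⟩ := Subgroup.mem_zpowers_iff.mp (hk₀ k)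
    exact hk (one_zpow n)
  have hδ := Bor_stable h β hU (Dsub_le_Bor h ⟨k₀, rfl⟩)
  obtain ⟨a, b, k, hδe⟩ := stab_oI h _ (MulAction.mem_stabilizer_iff.mp hδ)
  have hk : k ≠ 1 := by
    rintro rfl
    rw [Dg_one h, mul_one] at hδe
    have : β (Dg h k₀) ∈ Usub h := ⟨a, b, hδe⟩
    exact Dg_ne_of_mem_U h hk₀1 ((hU _).mp this)
  obtain ⟨x, y, hxy⟩ := LgDg_fix h a b hk
  set v := Lg h x y with hv
  have hvB : v ∈ Bor F m := MulAction.mem_stabilizer_iff.mpr (Lg_oI h x y)
  have hv0 : v • (oA 0 0 : Om F m) = oA x y := by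
    rw [hv, Lg_oA h]
    simp
  have hst := stable_conj h v⁻¹ ((Bor F m).inv_mem hvB) β hU
  refine ⟨v, hvB, hst, ?_⟩
  set β₂ : G F m ≃* G F m := MulAut.conj v⁻¹ * β with hβ₂
  have hk₀' : β₂ (Dg h k₀) ∈ Dsub h := by
    have e : β₂ (Dg h k₀) = v⁻¹ * β (Dg h k₀) * v := by
      change v⁻¹ * β (Dg h k₀) * v⁻¹⁻¹ = _
      rw [inv_inv]
    apply eq_Dg_of_fix h
    · rw [e, mul_smul, mul_smul, Lg_oI h, hδe, mul_smul, Dg_oI h, Lg_oI h, inv_smul_eq_iff, Lg_oI h]
    · rw [e, mul_smul, mul_smul, hv0, hδe, hxy, inv_smul_eq_iff, hv0]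
  intro c
  have h1 : Subgroup.zpowers k₀ ≤ (Dsub h).comap (β₂.toMonoidHom.comp (dHom h)) := by
    rw [Subgroup.zpowers_le]
    exact hk₀'
  exact h1 (hk₀ c)

/-- Third step: make `T` fixed. -/
theorem step3 (β : G F m ≃* G F m) (hU : StableU h β) (hD : ∀ c : Fˣ, β (Dg h c) ∈ Dsub h) :
    ∃ d : Fˣ, StableU h (MulAut.conj (Dg h d) * β) ∧ (MulAut.conj (Dg h d) * β) (Tg h) = Tg h ∧
      ∀ c : Fˣ, (MulAut.conj (Dg h d) * β) (Dg h c) ∈ Dsub h := by
  obtain ⟨k, hk⟩ := exists_unit_ne_one h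
  obtain ⟨κ, hκ⟩ := hD k
  have hκ1 : κ ≠ 1 := by
    rintro rfl
    rw [Dg_one h] at hκ
    have : Dg h k = 1 := β.injective (by rw [hκ, map_one])
    rw [← Dg_one h] at this
    exact hk (Dg_inj h this)
  have hκi : κ⁻¹ ≠ 1 := by
    intro hc
    exact hκ1 (inv_eq_one.mp hc)
  set t := β (Tg h) with ht
  have hinv : t * Dg h κ = Dg h κ⁻¹ * t := by
    have h1 := congrArg β (Tg_mul_Dg h k)
    rw [map_mul, map_mul, ← ht, hκ] at h1
    have h2 : β (Dg h k⁻¹) = Dg h κ⁻¹ := by
      rw [← Dg_inv h, map_inv, hκ, Dg_inv h]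
    rw [h2] at h1
    exact h1
  have hfix : ∀ w : Om F m, Dg h κ • w = w → t • w = oI ∨ t • w = oA 0 0 := by
    intro w hw
    apply Dg_fix h hκi
    rw [← mul_smul, ← hinv, mul_smul, hw]
  have hκI := hfix oI (Dg_oI h κ)
  have hκ0 : Dg h κ • (oA 0 0 : Om F m) = oA 0 0 := by
    rw [Dg_oA h]
    simp
  have hκ0' := hfix _ hκ0
  have hne : (oI : Om F m) ≠ oA 0 0 := (oA_ne_oI 0 0).symm
  -- `t` swaps the two points
  have hswap : t • (oI : Om F m) = oA 0 0 ∧ t • (oA 0 0 : Om F m) = oI := by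
    rcases hκI with h1 | h1
    · exfalso
      have h2 : t • (oA 0 0 : Om F m) = oA 0 0 := by
        rcases hκ0' with h3 | h3
        · exact absurd h3 (smul_oI_ne_of_oA h t h1)
        · exact h3
      obtain ⟨e, he⟩ := eq_Dg_of_fix h t h1 h2
      rw [he, Dg_mul h] at hinv
      rw [Dg_mul h, mul_comm] at hinv
      have h9 := mul_right_cancel (Dg_inj h hinv)
      exact Dg_sq_ne h hκ1 (congrArg (Dg h) h9.symm)
    · refine ⟨h1, ?_⟩
      rcases hκ0' with h3 | h3
      · exact h3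
      · exfalso
        have := smul_left_cancel t (h1.trans h3.symm)
        exact hne this
  obtain ⟨e, he⟩ := eq_Dg_of_fix h (Tg h * t)
    (by rw [mul_smul, hswap.1, Tg_oA_zero h])
    (by rw [mul_smul, hswap.2, Tg_oI h])
  have ht' : t = Tg h * Dg h e := by
    rw [← he, ← mul_assoc, Tg_sq h, one_mul]
  -- square root of `e`
  have hsq : Function.Injective (fun x : F => x ^ 2) := fun a b hab => h.sq_inj hab
  obtain ⟨d0, hd0⟩ := (Finite.injective_iff_surjective.mp hsq) (e : F)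
  simp only at hd0
  have hd00 : d0 ≠ 0 := by
    rintro rfl
    apply e.ne_zero
    rw [← hd0]
    simp
  let d : Fˣ := Units.mk0 d0 hd00
  have hdd : d * d = e := by
    apply Units.ext
    simp only [Units.val_mul, d, Units.val_mk0]
    rw [← hd0]
    ring
  have hcomm : ∀ c : Fˣ, Dg h d * Dg h c * (Dg h d)⁻¹ = Dg h c := by
    intro c
    rw [Dg_inv h, Dg_mul h, Dg_mul h, mul_comm d c, mul_assoc, mul_inv_cancel, mul_one]
  refine ⟨d, stable_conj h _ (Dsub_le_Bor h ⟨d, rfl⟩) β hU, ?_, ?_⟩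
  · change Dg h d * β (Tg h) * (Dg h d)⁻¹ = Tg h
    rw [← ht, ht']
    have h5 : Dg h d * Tg h = Tg h * Dg h d⁻¹ := by
      rw [Tg_mul_Dg h, inv_inv]
    rw [← mul_assoc, h5, Dg_inv h, mul_assoc, mul_assoc, Dg_mul h, Dg_mul h]
    have : d⁻¹ * (e * d⁻¹) = 1 := by
      rw [← hdd]
      group
    rw [this, Dg_one h, mul_one]
  · intro c
    obtain ⟨c', hc'⟩ := hD c
    change Dg h d * β (Dg h c) * (Dg h d)⁻¹ ∈ Dsub h
    rw [hc', hcomm]
    exact ⟨c', rfl⟩

/-- Fourth step: an automorphism stabilising `U`, `D` and fixing `T` is a field twist. -/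
theorem step4 (β : G F m ≃* G F m) (hU : StableU h β) (hT : β (Tg h) = Tg h)
    (hD : ∀ c : Fˣ, β (Dg h c) ∈ Dsub h) : ∃ τ : F ≃+* F, β = twist h τ := by
  choose ψ hψ using hD
  have hψmul : ∀ c c' : Fˣ, ψ (c * c') = ψ c * ψ c' := by
    intro c c'
    apply Dg_inj h
    rw [← hψ, ← Dg_mul h, map_mul, hψ, hψ, Dg_mul h]
  have hψone : ψ 1 = 1 := by
    apply Dg_inj h
    rw [← hψ, Dg_one h, map_one]
  -- the central subgroup is preserved
  have hZ : ∀ b : F, ∃ b' : F, β (Lg h 0 b) = Lg h 0 b' := by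
    intro b
    obtain ⟨a', b', he⟩ := (hU _).mpr (⟨0, b, rfl⟩ : Lg h 0 b ∈ Usub h)
    have ha : a' = 0 := by
      apply central_of_comm h (b := b')
      intro c d
      have hu : β.symm (Lg h c d) ∈ Usub h := by
        rw [← hU, MulEquiv.apply_symm_apply]
        exact ⟨c, d, rfl⟩
      obtain ⟨c₁, d₁, hcd⟩ := hu
      have h1 : β (Lg h c₁ d₁) = Lg h c d := by
        rw [← hcd, MulEquiv.apply_symm_apply]
      rw [← he, ← h1, ← map_mul, ← map_mul, Lg_zero_comm h]
    subst ha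
    exact ⟨b', he⟩
  choose B hB using hZ
  have hBadd : ∀ b b' : F, B (b + b') = B b + B b' := by
    intro b b'
    have e : ∀ x y : F, Lg h 0 x * Lg h 0 y = Lg h 0 (x + y) := by
      intro x y
      rw [Lg_mul h, add_zero, zero_pow_sg h, zero_mul, add_zero]
    have h1 : β (Lg h 0 (b + b')) = Lg h 0 (B b + B b') := by
      rw [← e, map_mul, hB, hB, e]
    rw [hB] at h1
    exact (Lg_inj h h1).2
  have hBinj : Function.Injective B := by
    intro b b' he
    have h1 : β (Lg h 0 b) = β (Lg h 0 b') := by rw [hB, hB, he]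
    exact (Lg_inj h (β.injective h1)).2
  have hB0 : B 0 = 0 := by
    have h1 := hBadd 0 0
    rw [add_zero] at h1
    have h2 : B 0 + B 0 = B 0 + 0 := by rw [← h1, add_zero]
    exact add_left_cancel h2
  have hBne : ∀ b : F, b ≠ 0 → B b ≠ 0 := by
    intro b hb hc
    apply hb
    apply hBinj
    rw [hc, hB0]
  -- the key relation
  have key : ∀ (b : F) (k : Fˣ), b ^ (2 ^ (m + 1)) = (k : F) ^ (2 ^ m) * k →
      (B b) ^ (2 ^ (m + 1)) = ((ψ k : Fˣ) : F) ^ (2 ^ m) * (ψ k : Fˣ) ∧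
      β (Lg h (b / b ^ (2 ^ (m + 1))) 0) = Lg h (B b / (B b) ^ (2 ^ (m + 1))) 0 := by
    intro b k hb
    have hne : (k : F) ^ (2 ^ m) * k ≠ 0 := mul_ne_zero (pow_ne_zero _ k.ne_zero) k.ne_zero
    have hb0 : b ≠ 0 := by
      rintro rfl
      rw [zero_pow (by positivity)] at hb
      exact hne hb.symm
    obtain ⟨c', d', he⟩ := decomp_of h k hb
    have he2 := congrArg β he
    simp only [map_mul, hT, hB, hψ] at he2
    obtain ⟨a₁, b₁, h1⟩ := (hU _).mpr
      (⟨_, 0, rfl⟩ : Lg h (b / b ^ (2 ^ (m + 1))) 0 ∈ Usub h)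
    obtain ⟨a₂, b₂, h2⟩ := (hU _).mpr (⟨c', d', rfl⟩ : Lg h c' d' ∈ Usub h)
    rw [h1, h2] at he2
    obtain ⟨e1, e2, e3⟩ := first_factor h (hBne b hb0) he2
    refine ⟨e3.symm, ?_⟩
    rw [h1, e1, e2]
  -- `ρ` is surjective on nonzero elements
  have hρ : ∀ x : F, x ≠ 0 → ∃ k : Fˣ, x = (k : F) ^ (2 ^ m) * k := by
    intro x hx
    have hinj : Function.Injective (fun t : F => t ^ (2 ^ m) * t) := fun a b e =>
      pow_r_mul_self_inj h e
    obtain ⟨k0, hk0⟩ := (Finite.injective_iff_surjective.mp hinj) x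
    simp only at hk0
    have hk00 : k0 ≠ 0 := by
      rintro rfl
      apply hx
      rw [← hk0]
      simp
    exact ⟨Units.mk0 k0 hk00, by simp [hk0]⟩
  have hBmul : ∀ b b' : F, B (b * b') = B b * B b' := by
    intro b b'
    by_cases hb : b = 0
    · rw [hb, zero_mul, hB0, zero_mul]
    by_cases hb' : b' = 0
    · rw [hb', mul_zero, hB0, mul_zero]
    obtain ⟨k, hk⟩ := hρ (b ^ (2 ^ (m + 1))) (pow_ne_zero _ hb)
    obtain ⟨k', hk'⟩ := hρ (b' ^ (2 ^ (m + 1))) (pow_ne_zero _ hb')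
    have h1 := (key b k hk).1
    have h2 := (key b' k' hk').1
    have h3 : (b * b') ^ (2 ^ (m + 1)) = ((k * k' : Fˣ) : F) ^ (2 ^ m) * ((k * k' : Fˣ) : F) := by
      rw [mul_pow, hk, hk']
      push_cast
      rw [mul_pow]
      ring
    have h4 := (key (b * b') (k * k') h3).1
    rw [hψmul] at h4
    apply h.pow_sg_inj
    rw [h4, mul_pow, h1, h2]
    push_cast
    rw [mul_pow]
    ring
  have hBone : B 1 = 1 := by
    have h1 := (key 1 1 (by simp)).1
    rw [hψone] at h1
    apply h.pow_sg_inj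
    rw [h1]
    simp
  have hBbij : Function.Bijective B := ⟨hBinj, Finite.injective_iff_surjective.mp hBinj⟩
  let τ : F ≃+* F := RingEquiv.ofBijective
    ({ toFun := B, map_one' := hBone, map_mul' := hBmul, map_zero' := hB0, map_add' := hBadd } : F →+* F)
    hBbij
  have hτ : ∀ x, τ x = B x := fun x => rfl
  refine ⟨τ, ?_⟩
  -- agreement on `D`
  have hψτ : ∀ k : Fˣ, ((ψ k : Fˣ) : F) = τ (k : F) := by
    intro k
    obtain ⟨b, hb⟩ := pow_sg_surj h ((k : F) ^ (2 ^ m) * k)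
    have h1 := (key b k hb).1
    rw [← hτ] at h1
    have h2 : τ (b ^ (2 ^ (m + 1))) = (τ (k : F)) ^ (2 ^ m) * τ (k : F) := by
      rw [hb, map_mul, map_pow]
    rw [map_pow, h1] at h2
    exact pow_r_mul_self_inj h h2
  -- agreement on `L(a,0)`
  have hLa : ∀ a : F, β (Lg h a 0) = Lg h (τ a) 0 := by
    intro a
    by_cases ha : a = 0
    · subst ha
      rw [hB, hB0, map_zero]
    have hinj : Function.Injective (fun t : F => t / t ^ (2 ^ (m + 1))) := by
      intro s t hst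
      simp only at hst
      have h00 : ∀ t : F, t / t ^ (2 ^ (m + 1)) = 0 → t = 0 := by
        intro t ht
        rcases div_eq_zero_iff.mp ht with h1 | h1
        · exact h1
        · exact h.pow_sg_eq_zero h1
      by_cases hs : s = 0
      · subst hs
        rw [zero_div] at hst
        exact (h00 t hst.symm).symm
      by_cases ht : t = 0
      · subst ht
        rw [zero_div] at hst
        exact h00 s hst
      have h1 : (s / t) ^ (2 ^ (m + 1)) = s / t := by
        rw [div_pow]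
        field_simp at hst ⊢
        linear_combination -hst
      have hst0 : s / t ≠ 0 := div_ne_zero hs ht
      rcases h.fixed_of_pow_sg h1 with h2 | h2
      · exact absurd h2 hst0
      · field_simp at h2
        exact h2
    obtain ⟨b, hb⟩ := (Finite.injective_iff_surjective.mp hinj) a
    simp only at hb
    have hb0 : b ≠ 0 := by
      rintro rfl
      apply ha
      rw [← hb]
      simp
    obtain ⟨k, hk⟩ := hρ (b ^ (2 ^ (m + 1))) (pow_ne_zero _ hb0)
    have h1 := (key b k hk).2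
    rw [hb] at h1
    rw [h1, ← hb, map_div₀, map_pow, hτ]
  have hL : ∀ a b : F, β (Lg h a b) = Lg h (τ a) (τ b) := by
    intro a b
    have e : ∀ x y : F, Lg h x 0 * Lg h 0 y = Lg h x y := by
      intro x y
      rw [Lg_mul h, add_zero, mul_zero, add_zero, zero_add]
    rw [← e a b, map_mul, hLa, hB, e, ← hτ]
  apply eq_of_generators h
  · intro a b
    rw [hL, twist_Lg]
  · intro k
    rw [hψ, twist_Dg]
    congr 1
    apply Units.ext
    exact hψτ k
  · rw [hT, twist_Tg]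

/-- Every automorphism is inner times a field twist. -/
theorem aut_decomp (α : G F m ≃* G F m) :
    ∃ (x : G F m) (τ : F ≃+* F), α = MulAut.conj x * twist h τ := by
  obtain ⟨x₁, hx₁⟩ := step1 h α
  obtain ⟨v, -, hv, hvD⟩ := step2 h _ hx₁
  obtain ⟨d, hd, hdT, hdD⟩ := step3 h _ hv hvD
  obtain ⟨τ, hτ⟩ := step4 h _ hd hdT hdD
  refine ⟨x₁ * v * (Dg h d)⁻¹, τ, ?_⟩
  rw [← hτ]
  simp only [map_mul, map_inv]
  group

/-- Composition of twists. -/
theorem twist_comp (τ τ' : F ≃+* F) :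
    (twist h τ)⁻¹ * twist h τ' = twist h (τ'.trans τ.symm) := by
  apply MulEquiv.ext
  intro g
  apply Subtype.ext
  apply Subtype.ext
  change mat ((twist h τ).symm (twist h τ' g)) = mat (twist h (τ'.trans τ.symm) g)
  change mat (twistHom h τ.symm (twistHom h τ' g)) = mat (twistHom h (τ'.trans τ.symm) g)
  rw [mat_twistHom, mat_twistHom, mat_twistHom]
  ext i j
  simp

/-- The map from field automorphisms to outer automorphisms is bijective. -/
theorem out_bijective :
    Function.Bijective (fun τ : F ≃+* F =>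
      (QuotientGroup.mk (twist h τ : MulAut (G F m)) : Cfsg.Out (G F m))) := by
  constructor
  · intro τ τ' he
    simp only at he
    rw [QuotientGroup.eq] at he
    obtain ⟨x, hx⟩ := he
    rw [twist_comp h] at hx
    have h1 := twist_inner h (τ'.trans τ.symm) x (fun y => by
      rw [← hx]
      rfl)
    apply RingEquiv.ext
    intro a
    have h2 := RingEquiv.congr_fun h1 a
    simp only [RingEquiv.trans_apply, RingEquiv.refl_apply] at h2
    have h3 := congrArg τ h2
    simpa using h3.symm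
  · intro q
    obtain ⟨α, rfl⟩ := QuotientGroup.mk_surjective q
    obtain ⟨x, τ, rfl⟩ := aut_decomp h α
    refine ⟨τ, ?_⟩
    simp only
    rw [QuotientGroup.eq]
    refine ⟨(twist h τ).symm x, ?_⟩
    apply MulEquiv.ext
    intro y
    change (twist h τ).symm x * y * ((twist h τ).symm x)⁻¹ =
      (twist h τ).symm (x * (twist h τ y) * x⁻¹)
    simp

end Cfsg.Agent.Lib.Suzuki.Aut
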