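import Cfsg.Agent.Lib.Suzuki.Basic

/-! Linearized polynomials over `F = GF(2^(2m+1))`, and the classification of additive `α`, `β`
with `β (x^σ * x) = (α x)^σ * α x`, `σ = 2^(m+1)`: such an injective `α` is `x ↦ l * x^(2^j)`. -/

set_option autoImplicit false
set_option linter.unusedSectionVars false
set_option linter.deprecated false
set_option linter.unusedSimpArgs false
set_option linter.style.longLine false
set_option linter.style.haveILetI false

namespace Cfsg.Agent.Lib.Suzuki.AutUField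

open Cfsg.Agent.Lib.Suzuki.Basic

/-! ### Binary uniqueness -/

theorem two_pow_aux {a b c d : ℕ} (hac : a < c) (hab : a ≤ b) (hcd : c ≤ d) :
    2 ^ a + 2 ^ b ≠ 2 ^ c + 2 ^ d := by
  intro e
  have hc : 2 ^ (a + 1) ∣ 2 ^ c := pow_dvd_pow 2 hac
  have hd : 2 ^ (a + 1) ∣ 2 ^ d := pow_dvd_pow 2 (by omega)
  have hs : 2 ^ (a + 1) ∣ 2 ^ a + 2 ^ b := by rw [e]; exact dvd_add hc hd
  rcases hab.lt_or_eq with hlt | rfl
  · have hb : 2 ^ (a + 1) ∣ 2 ^ b := pow_dvd_pow 2 hlt
    have h1 : 2 ^ (a + 1) ∣ 2 ^ a := (Nat.dvd_add_left hb).mp hs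
    have h2 := Nat.le_of_dvd (by positivity) h1
    have h3 : 2 ^ a < 2 ^ (a + 1) := Nat.pow_lt_pow_right (by norm_num) (by omega)
    omega
  · have h1 : 2 ^ (a + 1) ≤ 2 ^ c := Nat.pow_le_pow_right (by norm_num) hac
    have h2 : 2 ^ (a + 1) ≤ 2 ^ d := Nat.pow_le_pow_right (by norm_num) (by omega)
    have h3 : 2 ^ (a + 1) = 2 * 2 ^ a := by ring
    have h4 : 0 < 2 ^ a := by positivity
    omega

theorem two_pow_sorted {a b c d : ℕ} (hab : a ≤ b) (hcd : c ≤ d)
    (e : 2 ^ a + 2 ^ b = 2 ^ c + 2 ^ d) : a = c ∧ b = d := by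
  have hac : a = c := by
    rcases lt_trichotomy a c with h | h | h
    · exact absurd e (two_pow_aux h hab hcd)
    · exact h
    · exact absurd e.symm (two_pow_aux h hcd hab)
  subst hac
  refine ⟨rfl, ?_⟩
  have e' : 2 ^ b = 2 ^ d := by omega
  exact Nat.pow_right_injective (le_refl 2) e'

theorem two_pow_fiber {a b c d : ℕ} (e : 2 ^ a + 2 ^ b = 2 ^ c + 2 ^ d) :
    (a = c ∧ b = d) ∨ (a = d ∧ b = c) := by
  rcases le_total a b with hab | hab <;> rcases le_total c d with hcd | hcd
  · exact Or.inl (two_pow_sorted hab hcd e)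
  · have := two_pow_sorted hab hcd (by rw [e, add_comm])
    exact Or.inr this
  · have := two_pow_sorted hab hcd (by rw [add_comm, e])
    exact Or.inr ⟨this.2, this.1⟩
  · have := two_pow_sorted hab hcd (by rw [add_comm, e, add_comm])
    exact Or.inl ⟨this.2, this.1⟩

/-! ### Coefficient extraction -/

theorem coeff_extract {F : Type*} [Field F] [Fintype F] {ι : Type*} [Fintype ι] (D : ι → ℕ)
    (hD : ∀ i, D i < Fintype.card F) (c : ι → F) (hz : ∀ x : F, ∑ i, c i * x ^ D i = 0) (E : ℕ) :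
    ∑ i ∈ Finset.univ.filter (fun i => D i = E), c i = 0 := by
  classical
  let P : Polynomial F := ∑ i, Polynomial.C (c i) * Polynomial.X ^ D i
  have hdeg : P.natDegree < Fintype.card F := by
    have hq : 0 < Fintype.card F := Fintype.card_pos
    refine lt_of_le_of_lt (Polynomial.natDegree_sum_le_of_forall_le (n := Fintype.card F - 1) _ _ ?_) (by omega)
    intro i _
    refine (Polynomial.natDegree_C_mul_X_pow_le _ _).trans ?_
    have := hD i
    omega
  have hzero : P = 0 := by
    apply Polynomial.eq_zero_of_natDegree_lt_card_of_eval_eq_zero' P (Finset.univ)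
    · intro y _
      have := hz y
      simpa [P, Polynomial.eval_finset_sum] using this
    · simpa using hdeg
  have hc := congrArg (fun Q => Polynomial.coeff Q E) hzero
  simp only [P, Polynomial.finset_sum_coeff, Polynomial.coeff_C_mul_X_pow, Polynomial.coeff_zero] at hc
  rw [Finset.sum_filter]
  refine Eq.trans ?_ hc
  refine Finset.sum_congr rfl fun i _ => ?_
  by_cases hi : D i = E
  · simp [hi]
  · have : E ≠ D i := fun h' => hi h'.symm
    simp [hi, this]

variable {F : Type*} [Field F] [Fintype F] {m : ℕ}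

/-- The Frobenius power indexed by `ZMod (2m+1)`. -/
def pw (i : ZMod (2 * m + 1)) (x : F) : F := x ^ (2 ^ i.val)

section
variable (h : Hyp F m)
include h

theorem pow_mod_index (x : F) (k : ℕ) : x ^ (2 ^ (k % (2 * m + 1))) = x ^ (2 ^ k) := by
  have hk : x ^ ((2 ^ (2 * m + 1)) ^ (k / (2 * m + 1))) = x := by
    rw [← h.hF]
    exact FiniteField.pow_card_pow _ x
  conv_rhs => rw [← Nat.div_add_mod k (2 * m + 1)]
  rw [pow_add 2 ((2 * m + 1) * (k / (2 * m + 1))) (k % (2 * m + 1))]
  rw [pow_mul 2 (2 * m + 1) (k / (2 * m + 1)), pow_mul x _ (2 ^ (k % (2 * m + 1))), hk]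

theorem pw_add (i j : ZMod (2 * m + 1)) (x : F) : pw (i + j) x = pw i (pw j x) := by
  unfold pw
  rw [ZMod.val_add, pow_mod_index h, ← pow_mul, ← pow_add, add_comm]

theorem pw_add_add (i : ZMod (2 * m + 1)) (x y : F) : pw i (x + y) = pw i x + pw i y := by
  haveI := h.charP
  exact add_pow_char_pow x y 2 i.val

omit h in
theorem pw_mul (i : ZMod (2 * m + 1)) (x y : F) : pw i (x * y) = pw i x * pw i y := mul_pow _ _ _

omit h in
theorem pw_pow (i : ZMod (2 * m + 1)) (x : F) (n : ℕ) : pw i (x ^ n) = (pw i x) ^ n := by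
  unfold pw
  rw [← pow_mul, ← pow_mul, mul_comm]

omit h in
theorem pw_zero_arg (i : ZMod (2 * m + 1)) : pw i (0 : F) = 0 := zero_pow (by positivity)

theorem pw_inj (i : ZMod (2 * m + 1)) {x y : F} (e : pw i x = pw i y) : x = y := by
  haveI := h.charP
  have hi : Function.Injective (fun z : F => z ^ (2 ^ i.val)) := by
    haveI : Fact (Nat.Prime 2) := ⟨Nat.prime_two⟩
    exact (iterateFrobenius_inj F 2 i.val)
  exact hi e

/-- The index `m + 1`. -/
def sIdx (m : ℕ) : ZMod (2 * m + 1) := ((m + 1 : ℕ) : ZMod (2 * m + 1))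

theorem sIdx_val : (sIdx m).val = m + 1 := by
  have := h.hm
  exact ZMod.val_natCast_of_lt (by omega)

omit h in
theorem sIdx_add_self : sIdx m + sIdx m = 1 := by
  unfold sIdx
  have : ((2 * m + 1 : ℕ) : ZMod (2 * m + 1)) = 0 := ZMod.natCast_self _
  have e : ((m + 1 : ℕ) : ZMod (2 * m + 1)) + ((m + 1 : ℕ) : ZMod (2 * m + 1))
      = ((2 * m + 1 : ℕ) : ZMod (2 * m + 1)) + 1 := by
    push_cast; ring
  rw [e, this, zero_add]

theorem sIdx_ne_zero : sIdx m ≠ 0 := by
  intro e
  have := sIdx_val h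
  rw [e, ZMod.val_zero] at this
  omega

theorem pw_sIdx (x : F) : pw (sIdx m) x = x ^ (2 ^ (m + 1)) := by
  unfold pw
  rw [sIdx_val h]

theorem two_ne_zero_idx : (1 : ZMod (2 * m + 1)) + 1 ≠ 0 := by
  have hm := h.hm
  intro e
  have e2 : ((2 : ℕ) : ZMod (2 * m + 1)) = 0 := by
    push_cast
    rw [← e]
    ring
  rw [ZMod.natCast_eq_zero_iff] at e2
  have := Nat.le_of_dvd (by norm_num) e2
  omega

/-! ### Exponents -/

/-- The exponent of `pw i x * pw k x` reduced below `q`. -/
def Ex (m : ℕ) (p : ZMod (2 * m + 1) × ZMod (2 * m + 1)) : ℕ :=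
  if p.1.val = 2 * m ∧ p.2.val = 2 * m then 1 else 2 ^ p.1.val + 2 ^ p.2.val

theorem pw_mul_pw (p : ZMod (2 * m + 1) × ZMod (2 * m + 1)) (x : F) :
    pw p.1 x * pw p.2 x = x ^ Ex m p := by
  unfold Ex pw
  split_ifs with hp
  · rw [hp.1, hp.2, ← pow_add, pow_one]
    have e : 2 ^ (2 * m) + 2 ^ (2 * m) = 2 ^ (2 * m + 1) := by ring
    rw [e]
    exact h.pow_card x
  · rw [pow_add]

theorem Ex_lt (p : ZMod (2 * m + 1) × ZMod (2 * m + 1)) : Ex m p < Fintype.card F := by
  rw [h.hF]
  have hm := h.hm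
  have h1 : p.1.val < 2 * m + 1 := ZMod.val_lt _
  have h2 : p.2.val < 2 * m + 1 := ZMod.val_lt _
  unfold Ex
  split_ifs with hp
  · exact Nat.one_lt_two_pow (by omega)
  · obtain ⟨M, hM⟩ : ∃ M, 2 * m = M + 1 := ⟨2 * m - 1, by omega⟩
    have e1 : 2 ^ (2 * m + 1) = 4 * 2 ^ M := by rw [hM]; ring
    have e2 : 2 ^ (2 * m) = 2 * 2 ^ M := by rw [hM]; ring
    have hpos : 0 < 2 ^ M := by positivity
    have l1 : 2 ^ p.1.val ≤ 2 ^ (2 * m) := Nat.pow_le_pow_right (by norm_num) (by omega)
    have l2 : 2 ^ p.2.val ≤ 2 ^ (2 * m) := Nat.pow_le_pow_right (by norm_num) (by omega)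
    rw [e1]
    by_cases h3 : p.1.val = 2 * m
    · have h4 : p.2.val ≤ M := by
        have : p.2.val ≠ 2 * m := fun e => hp ⟨h3, e⟩
        omega
      have l3 : 2 ^ p.2.val ≤ 2 ^ M := Nat.pow_le_pow_right (by norm_num) h4
      omega
    · have h4 : p.1.val ≤ M := by omega
      have l3 : 2 ^ p.1.val ≤ 2 ^ M := Nat.pow_le_pow_right (by norm_num) h4
      omega

omit h in
theorem Ex_fiber (_hm : 1 ≤ m) {p p' : ZMod (2 * m + 1) × ZMod (2 * m + 1)} (e : Ex m p = Ex m p') :
    p = p' ∨ (p.1 = p'.2 ∧ p.2 = p'.1) := by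
  unfold Ex at e
  have hv := ZMod.val_injective (2 * m + 1)
  split_ifs at e with h1 h2 h2
  · left
    exact Prod.ext (hv (h1.1.trans h2.1.symm)) (hv (h1.2.trans h2.2.symm))
  · exfalso
    have l1 : 1 ≤ 2 ^ p'.1.val := Nat.one_le_two_pow
    have l2 : 1 ≤ 2 ^ p'.2.val := Nat.one_le_two_pow
    omega
  · exfalso
    have l1 : 1 ≤ 2 ^ p.1.val := Nat.one_le_two_pow
    have l2 : 1 ≤ 2 ^ p.2.val := Nat.one_le_two_pow
    omega
  · rcases two_pow_fiber e with ⟨a, b⟩ | ⟨a, b⟩
    · exact Or.inl (Prod.ext (hv a) (hv b))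
    · exact Or.inr ⟨hv a, hv b⟩

end

/-! ### Linearized polynomials -/

section rep
variable (h : Hyp F m)
include h

theorem rep_zero (c : ZMod (2 * m + 1) → F) (hz : ∀ x : F, ∑ i, c i * pw i x = 0) : c = 0 := by
  classical
  funext i₀
  have hD : ∀ i : ZMod (2 * m + 1), 2 ^ i.val < Fintype.card F := by
    intro i
    rw [h.hF]
    exact Nat.pow_lt_pow_right (by norm_num) (ZMod.val_lt i)
  have := coeff_extract (fun i : ZMod (2 * m + 1) => 2 ^ i.val) hD c (fun x => by simpa [pw] using hz x)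
    (2 ^ i₀.val)
  have hf : Finset.univ.filter (fun i : ZMod (2 * m + 1) => 2 ^ i.val = 2 ^ i₀.val) = {i₀} := by
    ext i
    simp only [Finset.mem_filter, Finset.mem_univ, true_and, Finset.mem_singleton]
    constructor
    · intro e
      exact ZMod.val_injective _ (Nat.pow_right_injective (le_refl 2) e)
    · rintro rfl
      rfl
  rw [hf, Finset.sum_singleton] at this
  simpa using this

/-- The additive map of a linearized polynomial. -/
def rep (c : ZMod (2 * m + 1) → F) : F →+ F :=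
  AddMonoidHom.mk' (fun x => ∑ i, c i * pw i x) (fun x y => by
    simp only [pw_add_add h, mul_add, Finset.sum_add_distrib])

theorem rep_apply (c : ZMod (2 * m + 1) → F) (x : F) : rep h c x = ∑ i, c i * pw i x := rfl

theorem rep_injective : Function.Injective (rep h) := by
  intro c d e
  have : c - d = 0 := by
    apply rep_zero h
    intro x
    have := DFunLike.congr_fun e x
    rw [rep_apply, rep_apply] at this
    simp only [Pi.sub_apply, sub_mul, Finset.sum_sub_distrib, this, sub_self]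
  exact sub_eq_zero.mp this

theorem card_addHom : Nat.card (F →+ F) = 2 ^ ((2 * m + 1) * (2 * m + 1)) := by
  classical
  haveI := h.charP
  letI : Module (ZMod 2) F := ZMod.algebra F 2 |>.toModule
  haveI : Fact (Nat.Prime 2) := ⟨Nat.prime_two⟩
  have hfin : Module.finrank (ZMod 2) F = 2 * m + 1 := by
    have h1 := Module.card_eq_pow_finrank (K := ZMod 2) (V := F)
    rw [h.hF, ZMod.card] at h1
    exact (Nat.pow_right_injective (le_refl 2) h1).symm
  have e : (F →+ F) ≃ (F →ₗ[ZMod 2] F) := (AddMonoidHom.toZModLinearMapEquiv 2).toEquiv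
  haveI : Finite (F →ₗ[ZMod 2] F) := Module.finite_of_finite (ZMod 2)
  letI := Fintype.ofFinite (F →ₗ[ZMod 2] F)
  rw [Nat.card_congr e, Nat.card_eq_fintype_card, Module.card_eq_pow_finrank (K := ZMod 2) (V := F →ₗ[ZMod 2] F),
    Module.finrank_linearMap, hfin, ZMod.card]

theorem rep_bijective : Function.Bijective (rep h) := by
  haveI : Finite (F →+ F) := DFunLike.finite _
  have hc : Nat.card (F →+ F) ≤ Nat.card (ZMod (2 * m + 1) → F) := by
    rw [card_addHom h, Nat.card_fun, Nat.card_zmod, Nat.card_eq_fintype_card, h.hF, ← pow_mul]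
  exact (rep_injective h).bijective_of_nat_card_le hc

theorem rep_surj (f : F →+ F) : ∃ c : ZMod (2 * m + 1) → F, ∀ x, f x = ∑ i, c i * pw i x := by
  obtain ⟨c, rfl⟩ := (rep_bijective h).2 f
  exact ⟨c, fun x => rfl⟩

omit h in
theorem Ex_comm (i k : ZMod (2 * m + 1)) : Ex m (k, i) = Ex m (i, k) := by
  unfold Ex
  simp only [and_comm, add_comm]

/-- Classification of the maps on the `F₂`-structure of `U/Z`. -/
theorem classify (α β : F →+ F) (hα : Function.Injective α)
    (hk : ∀ x, β (x ^ (2 ^ (m + 1)) * x) = (α x) ^ (2 ^ (m + 1)) * α x) :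
    ∃ (l : Fˣ) (j : ZMod (2 * m + 1)), ∀ x, α x = l * pw j x := by
  classical
  obtain ⟨a, ha⟩ := rep_surj h α
  obtain ⟨b, hb⟩ := rep_surj h β
  let s : ZMod (2 * m + 1) := sIdx m
  let a' : ZMod (2 * m + 1) → F := fun k => (a (k - s)) ^ (2 ^ (m + 1))
  have hα' : ∀ x, (α x) ^ (2 ^ (m + 1)) = ∑ k, a' k * pw k x := by
    intro x
    haveI := h.charP
    rw [ha x, sum_pow_char_pow]
    refine Fintype.sum_equiv (Equiv.addRight s) _ _ ?_
    intro i
    simp only [a', Equiv.coe_addRight, add_sub_cancel_right]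
    rw [mul_pow, add_comm i s, pw_add h, pw_sIdx h]
  let c : ZMod (2 * m + 1) × ZMod (2 * m + 1) → F :=
    fun p => a p.1 * a' p.2 + (if p.2 = p.1 + s then b p.1 else 0)
  have hz : ∀ x : F, ∑ p, c p * x ^ Ex m p = 0 := by
    intro x
    have e1 : ∀ p : ZMod (2 * m + 1) × ZMod (2 * m + 1), c p * x ^ Ex m p =
        (a p.1 * pw p.1 x) * (a' p.2 * pw p.2 x) +
          (if p.2 = p.1 + s then b p.1 * (pw p.1 x * pw p.2 x) else 0) := by
      intro p
      rw [← pw_mul_pw h]
      simp only [c]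
      split_ifs <;> ring
    rw [Finset.sum_congr rfl (fun p _ => e1 p), Finset.sum_add_distrib]
    have e2 : ∑ p : ZMod (2 * m + 1) × ZMod (2 * m + 1), (a p.1 * pw p.1 x) * (a' p.2 * pw p.2 x)
        = α x * (α x) ^ (2 ^ (m + 1)) := by
      rw [hα' x, ha x, Fintype.sum_prod_type, Finset.sum_mul_sum]
    have e3 : ∑ p : ZMod (2 * m + 1) × ZMod (2 * m + 1),
        (if p.2 = p.1 + s then b p.1 * (pw p.1 x * pw p.2 x) else 0)
        = β (x ^ (2 ^ (m + 1)) * x) := by
      rw [Fintype.sum_prod_type, hb]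
      refine Finset.sum_congr rfl fun i _ => ?_
      simp only
      rw [Finset.sum_ite_eq' Finset.univ (i + s), if_pos (Finset.mem_univ _)]
      rw [add_comm i s, pw_add h, pw_mul, pw_sIdx h, mul_comm (pw i x), pw_pow]
    rw [e2, e3, hk, mul_comm]
    exact h.add_self _
  have hext := fun E => coeff_extract (Ex m) (Ex_lt h) c hz E
  have hs0 : s ≠ 0 := sIdx_ne_zero h
  have L1 : ∀ j, a j * a' j = 0 := by
    intro j
    have := hext (Ex m (j, j))
    have hf : Finset.univ.filter (fun p => Ex m p = Ex m (j, j)) = {(j, j)} := by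
      ext p
      simp only [Finset.mem_filter, Finset.mem_univ, true_and, Finset.mem_singleton]
      constructor
      · intro e
        rcases Ex_fiber h.hm e with e | ⟨e1, e2⟩
        · exact e
        · exact Prod.ext e1 e2
      · rintro rfl
        rfl
    rw [hf, Finset.sum_singleton] at this
    have hne : j ≠ j + s := by
      intro e
      exact hs0 (by simpa using e.symm)
    simpa [c, hne] using this
  have L2 : ∀ i k, i ≠ k → k ≠ i + s → i ≠ k + s → a i * a' k + a k * a' i = 0 := by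
    intro i k hik h1 h2
    have := hext (Ex m (i, k))
    have hf : Finset.univ.filter (fun p => Ex m p = Ex m (i, k)) = {(i, k), (k, i)} := by
      ext p
      simp only [Finset.mem_filter, Finset.mem_univ, true_and, Finset.mem_insert, Finset.mem_singleton]
      constructor
      · intro e
        rcases Ex_fiber h.hm e with e | ⟨e1, e2⟩
        · exact Or.inl e
        · exact Or.inr (Prod.ext e1 e2)
      · rintro (rfl | rfl)
        · rfl
        · exact Ex_comm i k
    rw [hf, Finset.sum_pair (fun e => hik (congrArg Prod.fst e))] at this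
    simpa [c, h1, h2] using this
  have hpow : ∀ y : F, y ^ (2 ^ (m + 1)) = 0 → y = 0 := fun y hy => pow_eq_zero_iff (by positivity) |>.mp hy
  have hT : ∀ j, a j ≠ 0 → a (j + s) = 0 := by
    intro j hj
    by_contra hne
    have := L1 (j + s)
    rcases mul_eq_zero.mp this with h0 | h0
    · exact hne h0
    · have h1 := hpow _ h0
      simp only [add_sub_cancel_right] at h1
      exact hj h1
  have hss : ∀ j : ZMod (2 * m + 1), j + s + s = j + 1 := by
    intro j
    have : s + s = 1 := sIdx_add_self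
    rw [add_assoc, this]
  have hnext : ∀ i j, a i ≠ 0 → a j ≠ 0 → i ≠ j → i = j + 1 := by
    intro i j hi hj hij
    by_contra hne
    have hak : a (j + s) = 0 := hT j hj
    have ha'k : a' (j + s) ≠ 0 := by
      simp only [a', add_sub_cancel_right]
      exact pow_ne_zero _ hj
    have h1 : i ≠ j + s := by
      rintro rfl
      exact hi hak
    have h2 : j + s ≠ i + s := fun e => hij (add_right_cancel e).symm
    have h3 : i ≠ j + s + s := by
      rw [hss]
      exact hne
    have := L2 i (j + s) h1 h2 h3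
    rw [hak, zero_mul, add_zero] at this
    exact (mul_ne_zero hi ha'k) this
  have hex : ∃ j, a j ≠ 0 := by
    by_contra hall
    push Not at hall
    have h1 : α 1 = 0 := by
      rw [ha 1]
      exact Finset.sum_eq_zero fun i _ => by rw [hall i, zero_mul]
    have h2 : α 1 = α 0 := by rw [h1, map_zero]
    exact one_ne_zero (hα h2)
  obtain ⟨j, hj⟩ := hex
  have huniq : ∀ i, i ≠ j → a i = 0 := by
    intro i hij
    by_contra hi
    have e1 := hnext i j hi hj hij
    have e2 := hnext j i hj hi hij.symm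
    apply two_ne_zero_idx h
    have e3 : j = j + (1 + 1) := by
      conv_lhs => rw [e2, e1]
      ring
    simpa using e3.symm
  refine ⟨Units.mk0 (a j) hj, j, fun x => ?_⟩
  rw [ha x, Finset.sum_eq_single j]
  · rfl
  · intro i _ hi
    rw [huniq i hi, zero_mul]
  · intro hn
    exact absurd (Finset.mem_univ j) hn

end rep

end Cfsg.Agent.Lib.Suzuki.AutUField
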