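import Cfsg.Agent.Lib.Suzuki.Iso
import Cfsg.Agent.Lib.Suzuki.AutUField
import Cfsg.Prelude.Def_Transfer
import Cfsg.Prelude.Def_Solvable

/-! The automorphism group of a Sylow 2-subgroup `U` of the Suzuki group: the kernel of the action
on `U/Z(U)` is elementary abelian of order `2^(n²)` and the image has order `n (q - 1)`. -/

set_option autoImplicit false
set_option linter.unusedSectionVars false
set_option linter.deprecated false
set_option linter.unusedSimpArgs false
set_option linter.style.longLine false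
set_option linter.style.haveILetI false

namespace Cfsg.Agent.Lib.Suzuki.AutU

open Cfsg.Agent.Lib.Suzuki.Basic Cfsg.Agent.Lib.Suzuki.Group Cfsg.Agent.Lib.Suzuki.Struct
  Cfsg.Agent.Lib.Suzuki.Sub Cfsg.Agent.Lib.Suzuki.Syl Cfsg.Agent.Lib.Suzuki.Iso
  Cfsg.Agent.Lib.Suzuki.AutUField

/-! ### A group-theoretic criterion for the 2-core -/

theorem pCore_eq_ker {X R : Type*} [Group X] [Finite X] [Group R] (Φ : X →* R)
    (hK : IsPGroup 2 Φ.ker) (hR : Odd (Nat.card Φ.range)) : Cfsg.pCore 2 X = Φ.ker := by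
  apply le_antisymm
  · refine sSup_le ?_
    rintro N ⟨_, hN⟩ x hx
    obtain ⟨k, hk⟩ := hN ⟨x, hx⟩
    have hk' : x ^ (2 ^ k) = 1 := by
      have := congrArg Subtype.val hk
      simpa using this
    let y : Φ.range := Φ.rangeRestrict x
    have hy : y ^ (2 ^ k) = 1 := by
      rw [← map_pow, hk', map_one]
    have h1 : orderOf y ∣ 2 ^ k := orderOf_dvd_of_pow_eq_one hy
    have h2 : orderOf y ∣ Nat.card Φ.range := orderOf_dvd_natCard y
    have hc : Nat.Coprime (2 ^ k) (Nat.card Φ.range) := Nat.Coprime.pow_left k (Nat.coprime_two_left.mpr hR)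
    have h3 : orderOf y = 1 := Nat.eq_one_of_dvd_coprimes hc h1 h2
    have h4 : y = 1 := orderOf_eq_one_iff.mp h3
    exact congrArg Subtype.val h4
  · exact le_sSup ⟨MonoidHom.normal_ker Φ, hK⟩

variable {F : Type*} [Field F] [Fintype F] {m : ℕ} (h : Hyp F m)

/-! ### Coordinates on `U` -/

/-- The element `L(a,b)` of `U`. -/
noncomputable def L (a b : F) : Usub h := ⟨Lg h a b, a, b, rfl⟩

theorem L_mul (a b c d : F) :
    L h a b * L h c d = L h (a + c) (b + d + a ^ (2 ^ (m + 1)) * c) :=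
  Subtype.ext (Lg_mul h a b c d)

theorem L_inj {a b c d : F} (e : L h a b = L h c d) : a = c ∧ b = d :=
  Lg_inj h (congrArg Subtype.val e)

theorem L_surj (u : Usub h) : ∃ a b, u = L h a b := by
  obtain ⟨_, a, b, rfl⟩ := u
  exact ⟨a, b, rfl⟩

theorem L_zero : L h (0 : F) 0 = 1 := Subtype.ext (Lg_zero h)

theorem L_sq (a b : F) : L h a b * L h a b = L h 0 (a ^ (2 ^ (m + 1)) * a) := by
  rw [L_mul, h.add_self, h.add_self, zero_add]

theorem L_sq_eq_one {a b : F} : L h a b * L h a b = 1 ↔ a = 0 := by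
  rw [L_sq, ← L_zero h]
  constructor
  · intro e
    have := (L_inj h e).2
    rcases mul_eq_zero.mp this with h1 | h1
    · exact pow_eq_zero_iff (by positivity) |>.mp h1
    · exact h1
  · rintro rfl
    simp

theorem L_split (a b : F) : L h a b = L h a 0 * L h 0 b := by
  rw [L_mul]
  simp

theorem L_mul0 (b d : F) : L h 0 b * L h 0 d = L h 0 (b + d) := by
  rw [L_mul]
  simp

/-- First coordinate. -/
noncomputable def fstU (u : Usub h) : F := (L_surj h u).choose
/-- Second coordinate. -/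
noncomputable def sndU (u : Usub h) : F := (L_surj h u).choose_spec.choose

theorem L_fst_snd (u : Usub h) : L h (fstU h u) (sndU h u) = u :=
  (L_surj h u).choose_spec.choose_spec.symm

theorem fstU_L (a b : F) : fstU h (L h a b) = a := (L_inj h (L_fst_snd h _)).1
theorem sndU_L (a b : F) : sndU h (L h a b) = b := (L_inj h (L_fst_snd h _)).2

/-! ### The parameters of an automorphism -/

section aut
variable (φ ψ : MulAut (Usub h))

/-- The action on `U/Z`. -/
noncomputable def A (a : F) : F := fstU h (φ (L h a 0))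
/-- The cocycle part. -/
noncomputable def C (a : F) : F := sndU h (φ (L h a 0))
/-- The action on `Z`. -/
noncomputable def B (b : F) : F := sndU h (φ (L h 0 b))

theorem phi_a0 (a : F) : φ (L h a 0) = L h (A h φ a) (C h φ a) := (L_fst_snd h _).symm

theorem phi_0b (b : F) : φ (L h 0 b) = L h 0 (B h φ b) := by
  have h1 : (φ (L h 0 b)) * (φ (L h 0 b)) = 1 := by
    rw [← map_mul, (L_sq_eq_one h).mpr rfl, map_one]
  have h2 := L_fst_snd h (φ (L h 0 b))
  have h3 : fstU h (φ (L h 0 b)) = 0 := (L_sq_eq_one h).mp (by rw [h2]; exact h1)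
  have h4 : L h (fstU h (φ (L h 0 b))) (sndU h (φ (L h 0 b))) = L h 0 (sndU h (φ (L h 0 b))) := by rw [h3]
  exact h2.symm.trans h4

theorem phi_L (a b : F) : φ (L h a b) = L h (A h φ a) (C h φ a + B h φ b) := by
  rw [L_split h a b, map_mul, phi_a0, phi_0b, L_mul]
  simp

theorem A_add (a c : F) : A h φ (a + c) = A h φ a + A h φ c := by
  have e := map_mul φ (L h a 0) (L h c 0)
  rw [L_mul, phi_L, phi_a0, phi_a0, L_mul] at e
  exact (L_inj h e).1

theorem B_add (b d : F) : B h φ (b + d) = B h φ b + B h φ d := by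
  have e := map_mul φ (L h 0 b) (L h 0 d)
  rw [L_mul0, phi_0b, phi_0b, phi_0b, L_mul0] at e
  exact (L_inj h e).2

theorem rel (a c : F) : C h φ (a + c) + B h φ (a ^ (2 ^ (m + 1)) * c) =
    C h φ a + C h φ c + (A h φ a) ^ (2 ^ (m + 1)) * A h φ c := by
  have e := map_mul φ (L h a 0) (L h c 0)
  rw [L_mul, phi_L, phi_a0, phi_a0, L_mul] at e
  have := (L_inj h e).2
  simpa using this

theorem key (a : F) : B h φ (a ^ (2 ^ (m + 1)) * a) = (A h φ a) ^ (2 ^ (m + 1)) * A h φ a := by
  have e := map_mul φ (L h a 0) (L h a 0)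
  rw [L_sq, phi_0b, phi_a0, L_sq] at e
  exact (L_inj h e).2

theorem A_eq_zero {x : F} (hx : A h φ x = 0) : x = 0 := by
  have h1 : φ (L h x 0) * φ (L h x 0) = 1 := by
    rw [phi_a0, hx]
    exact (L_sq_eq_one h).mpr rfl
  rw [← map_mul] at h1
  have h2 : L h x 0 * L h x 0 = 1 := φ.injective (by rw [h1, map_one])
  exact (L_sq_eq_one h).mp h2

theorem A_inj : Function.Injective (A h φ) := by
  intro a c e
  have h1 : A h φ (a + c) = 0 := by
    rw [A_add, e]
    exact h.add_self _
  exact h.eq_of_add_eq_zero (A_eq_zero h φ h1)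

theorem A_bij : Function.Bijective (A h φ) := Finite.injective_iff_bijective.mp (A_inj h φ)

theorem A_mul (a : F) : A h (φ * ψ) a = A h φ (A h ψ a) := by
  show fstU h (φ (ψ (L h a 0))) = A h φ (A h ψ a)
  rw [phi_a0 h ψ a, phi_L, fstU_L]

/-- `A` as an additive map. -/
noncomputable def AH : F →+ F := AddMonoidHom.mk' (A h φ) (A_add h φ)
/-- `B` as an additive map. -/
noncomputable def BH : F →+ F := AddMonoidHom.mk' (B h φ) (B_add h φ)

/-- The action on `U/Z` as a homomorphism to permutations. -/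
noncomputable def Phi : MulAut (Usub h) →* Equiv.Perm F :=
  MonoidHom.mk' (fun φ => Equiv.ofBijective (A h φ) (A_bij h φ))
    (fun φ ψ => Equiv.ext fun a => A_mul h φ ψ a)

theorem Phi_apply (a : F) : Phi h φ a = A h φ a := rfl

theorem aut_ext (H : ∀ a b, φ (L h a b) = ψ (L h a b)) : φ = ψ := by
  apply MulEquiv.ext
  intro u
  obtain ⟨a, b, rfl⟩ := L_surj h u
  exact H a b

theorem mem_ker_iff : φ ∈ (Phi h).ker ↔ ∀ a, A h φ a = a := by
  rw [MonoidHom.mem_ker]
  constructor
  · intro e a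
    have := congrArg (fun π : Equiv.Perm F => π a) e
    exact this
  · intro e
    exact Equiv.ext e

theorem ker_form (hφ : φ ∈ (Phi h).ker) : ∃ γ : F →+ F, ∀ a b, φ (L h a b) = L h a (γ a + b) := by
  have hA := (mem_ker_iff h φ).mp hφ
  have hB : ∀ y, B h φ y = y := by
    intro y
    obtain ⟨x, rfl⟩ := (pow_sg_mul_self_bij h).2 y
    simp only
    rw [key, hA]
  refine ⟨AddMonoidHom.mk' (C h φ) ?_, ?_⟩
  · intro a c
    have := rel h φ a c
    rw [hB, hA, hA] at this
    exact add_right_cancel this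
  · intro a b
    rw [phi_L, hA, hB]
    rfl

theorem ker_comm (hφ : φ ∈ (Phi h).ker) (hψ : ψ ∈ (Phi h).ker) : φ * ψ = ψ * φ := by
  obtain ⟨γ, hγ⟩ := ker_form h φ hφ
  obtain ⟨δ, hδ⟩ := ker_form h ψ hψ
  apply aut_ext
  intro a b
  rw [MulAut.mul_apply, MulAut.mul_apply, hδ, hγ, hγ, hδ, add_left_comm]

theorem ker_sq (hφ : φ ∈ (Phi h).ker) : φ ^ 2 = 1 := by
  obtain ⟨γ, hγ⟩ := ker_form h φ hφ
  apply aut_ext
  intro a b
  rw [pow_two, MulAut.mul_apply, hγ, hγ, ← add_assoc, h.add_self, zero_add]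
  rfl

end aut

/-! ### Constructing automorphisms -/

section mk

/-- The automorphism with prescribed parameters. -/
noncomputable def mkAut (A' B' : F →+ F) (C' : F → F) (hA : Function.Injective A')
    (hB : Function.Injective B')
    (hR : ∀ a c, C' (a + c) + B' (a ^ (2 ^ (m + 1)) * c) =
      C' a + C' c + (A' a) ^ (2 ^ (m + 1)) * A' c) : MulAut (Usub h) :=
  let f : Usub h →* Usub h := MonoidHom.mk' (fun u => L h (A' (fstU h u)) (C' (fstU h u) + B' (sndU h u)))
    (by
      intro u v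
      obtain ⟨a, b, rfl⟩ := L_surj h u
      obtain ⟨c, d, rfl⟩ := L_surj h v
      simp only [L_mul, fstU_L, sndU_L]
      rw [map_add, map_add, map_add]
      congr 1
      have := hR a c
      have h2 : ∀ x y z w t : F, x + t = y + z + w → x + (B' b + B' d + t) = y + B' b + (z + B' d) + w := by
        intro x y z w t e
        have : x + (B' b + B' d + t) = (x + t) + (B' b + B' d) := by abel
        rw [this, e]
        abel
      exact h2 _ _ _ _ _ this)
  MulEquiv.ofBijective f (Finite.injective_iff_bijective.mp (by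
    intro u v e
    obtain ⟨a, b, rfl⟩ := L_surj h u
    obtain ⟨c, d, rfl⟩ := L_surj h v
    have e' : L h (A' a) (C' a + B' b) = L h (A' c) (C' c + B' d) := by
      simpa [f, fstU_L, sndU_L] using e
    obtain ⟨e1, e2⟩ := L_inj h e'
    have hac := hA e1
    subst hac
    have := hB (add_left_cancel e2)
    subst this
    rfl))

theorem mkAut_L (A' B' : F →+ F) (C' : F → F) (hA : Function.Injective A')
    (hB : Function.Injective B')
    (hR : ∀ a c, C' (a + c) + B' (a ^ (2 ^ (m + 1)) * c) =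
      C' a + C' c + (A' a) ^ (2 ^ (m + 1)) * A' c) (a b : F) :
    mkAut h A' B' C' hA hB hR (L h a b) = L h (A' a) (C' a + B' b) := by
  show L h (A' (fstU h (L h a b))) (C' (fstU h (L h a b)) + B' (sndU h (L h a b))) = _
  rw [fstU_L, sndU_L]

theorem A_mkAut (A' B' : F →+ F) (C' : F → F) (hA : Function.Injective A')
    (hB : Function.Injective B')
    (hR : ∀ a c, C' (a + c) + B' (a ^ (2 ^ (m + 1)) * c) =
      C' a + C' c + (A' a) ^ (2 ^ (m + 1)) * A' c) (a : F) :
    A h (mkAut h A' B' C' hA hB hR) a = A' a := by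
  unfold A
  rw [mkAut_L, fstU_L]

/-- The kernel element of an additive map. -/
noncomputable def mkKer (γ : F →+ F) : MulAut (Usub h) :=
  mkAut h (AddMonoidHom.id F) (AddMonoidHom.id F) γ Function.injective_id Function.injective_id
    (by
      intro a c
      simp [map_add])

theorem mkKer_L (γ : F →+ F) (a b : F) : mkKer h γ (L h a b) = L h a (γ a + b) :=
  mkAut_L h _ _ _ _ _ _ a b

theorem mkKer_mem (γ : F →+ F) : mkKer h γ ∈ (Phi h).ker := by
  rw [mem_ker_iff]
  intro a
  exact A_mkAut h _ _ _ _ _ _ a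

/-- Kernel elements are additive maps. -/
theorem card_ker : Nat.card (Phi h).ker = 2 ^ ((2 * m + 1) * (2 * m + 1)) := by
  rw [← card_addHom h]
  symm
  refine Nat.card_congr (Equiv.ofBijective (fun γ => ⟨mkKer h γ, mkKer_mem h γ⟩) ⟨?_, ?_⟩)
  · intro γ δ e
    ext a
    have e1 := congrArg (fun φ : (Phi h).ker => (φ : MulAut (Usub h)) (L h a 0)) e
    simp only [mkKer_L] at e1
    have := (L_inj h e1).2
    simpa using this
  · rintro ⟨φ, hφ⟩
    obtain ⟨γ, hγ⟩ := ker_form h φ hφ
    refine ⟨γ, Subtype.ext ?_⟩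
    apply aut_ext
    intro a b
    rw [hγ]
    exact mkKer_L h γ a b

/-- The additive map `x ↦ l * x^(2^j)`. -/
noncomputable def linH (l : F) (j : ZMod (2 * m + 1)) : F →+ F :=
  AddMonoidHom.mk' (fun x => l * pw j x) (fun x y => by rw [pw_add_add h, mul_add])

theorem linH_apply (l : F) (j : ZMod (2 * m + 1)) (x : F) : linH h l j x = l * pw j x := rfl

theorem linH_inj {l : F} (hl : l ≠ 0) (j : ZMod (2 * m + 1)) : Function.Injective (linH h l j) := by
  intro x y e
  rw [linH_apply, linH_apply] at e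
  exact pw_inj h j (mul_left_cancel₀ hl e)

/-- The automorphism `(a, b) ↦ (l a^(2^j), l^(σ+1) b^(2^j))`. -/
noncomputable def mkTor (l : Fˣ) (j : ZMod (2 * m + 1)) : MulAut (Usub h) :=
  mkAut h (linH h (l : F) j) (linH h ((l : F) ^ (2 ^ (m + 1)) * l) j) (fun _ => 0)
    (linH_inj h l.ne_zero j) (linH_inj h (mul_ne_zero (pow_ne_zero _ l.ne_zero) l.ne_zero) j)
    (by
      intro a c
      simp only [linH_apply, zero_add, pw_mul, pw_pow, mul_pow]
      ring)

theorem A_mkTor (l : Fˣ) (j : ZMod (2 * m + 1)) (a : F) : A h (mkTor h l j) a = l * pw j a :=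
  A_mkAut h _ _ _ _ _ _ a

include h in
theorem pw_index_inj {j j' : ZMod (2 * m + 1)} (e : ∀ x : F, pw j x = pw j' x) : j = j' := by
  classical
  by_contra hne
  have hz := rep_zero h (fun i => (if i = j then (1 : F) else 0) - (if i = j' then 1 else 0)) (by
    intro x
    simp only [sub_mul, Finset.sum_sub_distrib, ite_mul, one_mul, zero_mul, Finset.sum_ite_eq',
      Finset.mem_univ, if_true, e x, sub_self])
  have := congrFun hz j
  simp [hne] at this

/-- The image of `Φ` has order `(q - 1) n`. -/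
theorem card_range : Nat.card (Phi h).range = (2 ^ (2 * m + 1) - 1) * (2 * m + 1) := by
  classical
  have e : Fˣ × ZMod (2 * m + 1) ≃ (Phi h).range := Equiv.ofBijective
    (fun p => ⟨Phi h (mkTor h p.1 p.2), ⟨_, rfl⟩⟩) (by
      constructor
      · rintro ⟨l, j⟩ ⟨l', j'⟩ e
        have e1 : ∀ x : F, (l : F) * pw j x = l' * pw j' x := by
          intro x
          have := congrArg (fun π : (Phi h).range => (π : Equiv.Perm F) x) e
          simp only [Phi_apply, A_mkTor] at this
          exact this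
        have hl : (l : F) = l' := by
          have := e1 1
          simpa [pw] using this
        have hl' : l = l' := Units.ext hl
        subst hl'
        have hj : j = j' := pw_index_inj h (fun x => mul_left_cancel₀ l.ne_zero (e1 x))
        subst hj
        rfl
      · rintro ⟨_, φ, rfl⟩
        obtain ⟨l, j, hlj⟩ := classify h (AH h φ) (BH h φ) (A_inj h φ) (key h φ)
        refine ⟨(l, j), Subtype.ext (Equiv.ext fun x => ?_)⟩
        show A h (mkTor h l j) x = A h φ x
        rw [A_mkTor]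
        exact (hlj x).symm)
  rw [← Nat.card_congr e, Nat.card_prod, Nat.card_zmod, Nat.card_eq_fintype_card, Fintype.card_units, h.hF]

end mk

/-! ### Transport to an abstract copy of `U` -/

theorem odd_card_range : Odd ((2 ^ (2 * m + 1) - 1) * (2 * m + 1)) := by
  refine Odd.mul ?_ ⟨m, rfl⟩
  have : 2 ^ (2 * m + 1) = 2 * 2 ^ (2 * m) := by ring
  rw [this]
  have h1 : 0 < 2 ^ (2 * m) := by positivity
  exact ⟨2 ^ (2 * m) - 1, by omega⟩

theorem main_of_equiv {S : Type*} [Group S] [Finite S] (e : S ≃* Usub h) :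
    Cfsg.IsElementaryAbelian 2 (Cfsg.pCore 2 (MulAut S)) ∧
      Nat.card ↥(Cfsg.pCore 2 (MulAut S)) = 2 ^ ((2 * m + 1) ^ 2) ∧
      Nat.card (MulAut S) = 2 ^ ((2 * m + 1) ^ 2) * ((2 * m + 1) * (2 ^ (2 * m + 1) - 1)) := by
  haveI : Finite (MulAut S) := DFunLike.finite _
  haveI : Finite (MulAut (Usub h)) := DFunLike.finite _
  let ε : MulAut S ≃* MulAut (Usub h) := MulAut.congr e
  let Ψ : MulAut S →* Equiv.Perm F := (Phi h).comp ε.toMonoidHom
  have hmem : ∀ x, x ∈ Ψ.ker ↔ ε x ∈ (Phi h).ker := fun x => Iff.rfl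
  have hsq : (2 * m + 1) ^ 2 = (2 * m + 1) * (2 * m + 1) := by ring
  have hcardK : Nat.card Ψ.ker = 2 ^ ((2 * m + 1) ^ 2) := by
    rw [hsq, ← card_ker h]
    exact Nat.card_congr (ε.toEquiv.subtypeEquiv hmem)
  have hrange : Ψ.range = (Phi h).range := by
    ext y
    constructor
    · rintro ⟨x, rfl⟩
      exact ⟨ε x, rfl⟩
    · rintro ⟨x, rfl⟩
      refine ⟨ε.symm x, ?_⟩
      show Phi h (ε (ε.symm x)) = _
      rw [ε.apply_symm_apply]
  have hcardR : Nat.card Ψ.range = (2 ^ (2 * m + 1) - 1) * (2 * m + 1) := by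
    rw [hrange, card_range h]
  have hodd : Odd (Nat.card Ψ.range) := by
    rw [hcardR]
    exact odd_card_range
  have hP : IsPGroup 2 Ψ.ker := IsPGroup.of_card hcardK
  have hcore : Cfsg.pCore 2 (MulAut S) = Ψ.ker := pCore_eq_ker Ψ hP hodd
  rw [hcore]
  refine ⟨⟨⟨⟨?_⟩⟩, ?_⟩, hcardK, ?_⟩
  · rintro ⟨x, hx⟩ ⟨y, hy⟩
    apply Subtype.ext
    apply ε.injective
    show ε (x * y) = ε (y * x)
    rw [map_mul, map_mul]
    exact ker_comm h _ _ ((hmem x).mp hx) ((hmem y).mp hy)
  · intro x hx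
    apply ε.injective
    rw [map_pow, map_one]
    exact ker_sq h _ ((hmem x).mp hx)
  · rw [← Subgroup.card_mul_index Ψ.ker, Subgroup.index_ker, hcardK, hcardR, mul_comm (2 * m + 1)]

include h in
/-- The statement for a Sylow 2-subgroup of the matrix form of the Suzuki group. -/
theorem main_Lie {S : Type*} [Group S] [Finite S]
    (P : Sylow 2 ↥(Cfsg.Lie.Sz F (2 ^ (m + 1)))) (hS : Nonempty (S ≃* ↥(P : Subgroup ↥(Cfsg.Lie.Sz F (2 ^ (m + 1)))))) :
    Cfsg.IsElementaryAbelian 2 (Cfsg.pCore 2 (MulAut S)) ∧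
      Nat.card ↥(Cfsg.pCore 2 (MulAut S)) = 2 ^ ((2 * m + 1) ^ 2) ∧
      Nat.card (MulAut S) = 2 ^ ((2 * m + 1) ^ 2) * ((2 * m + 1) * (2 ^ (2 * m + 1) - 1)) := by
  classical
  obtain ⟨e₀⟩ := hS
  let E := suzEquiv h
  haveI : Finite (G F m) := inferInstance
  haveI : Finite ↥(Cfsg.Lie.Sz F (2 ^ (m + 1))) := Finite.of_equiv _ E.toEquiv
  let Q : Sylow 2 ↥(Cfsg.Lie.Sz F (2 ^ (m + 1))) := (Usyl h).mapSurjective (f := E.toMonoidHom) E.surjective
  let e₁ : ↥(P : Subgroup ↥(Cfsg.Lie.Sz F (2 ^ (m + 1)))) ≃* ↥(Q : Subgroup ↥(Cfsg.Lie.Sz F (2 ^ (m + 1)))) := Sylow.equiv P Q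
  have e₂ : ↥(Q : Subgroup ↥(Cfsg.Lie.Sz F (2 ^ (m + 1)))) ≃* Usub h := (E.subgroupMap (Usub h)).symm
  exact main_of_equiv h (e₀.trans (e₁.trans e₂))

end Cfsg.Agent.Lib.Suzuki.AutU
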