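import Cfsg.Agent.Lib.Suzuki.Struct
import Cfsg.Prelude.Def_Sz

/-! The ovoid model `Cfsg.Sz F m` of the Suzuki group embeds in the matrix model `Cfsg.Lie.Sz F e`. -/

set_option autoImplicit false
set_option linter.unusedSectionVars false
set_option linter.deprecated false
set_option linter.unusedSimpArgs false

namespace Cfsg.Agent.Lib.Suzuki.LieEmbed

open Matrix Cfsg.Agent.Lib.Suzuki.Basic Cfsg.Agent.Lib.Suzuki.Group Cfsg.Agent.Lib.Suzuki.Struct
open Cfsg.Lie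

variable {F : Type*} [Field F] [Fintype F] {m : ℕ}

theorem Lm_sp (h : Hyp F m) (a b : F) (u v : Fin 4 → F) :
    altForm4 (Lm m a b *ᵥ u) (Lm m a b *ᵥ v) = altForm4 u v := by
  have h2 := h.two_eq_zero
  simp only [altForm4, Lm, Matrix.mulVec, dotProduct, Fin.sum_univ_four]
  simp
  generalize fz m a b = f
  generalize a ^ (2 ^ (m + 1)) = A
  generalize u 0 = u0
  generalize u 1 = u1
  generalize u 2 = u2
  generalize u 3 = u3
  generalize v 0 = v0
  generalize v 1 = v1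
  generalize v 2 = v2
  generalize v 3 = v3
  grind

theorem fz_pow_sg (h : Hyp F m) (x y : F) : (fz m x y) ^ (2 ^ (m + 1)) =
    x ^ (2 ^ (m + 1)) * y ^ (2 ^ (m + 1)) + x ^ 2 * (x ^ (2 ^ (m + 1))) ^ 2 + y ^ 2 := by
  rw [fz_def, h.add_pow_sg, h.add_pow_sg, mul_pow, mul_pow, h.pow_sg_sg, h.pow_sg_sg,
    ← pow_mul, mul_comm 2, pow_mul]

theorem Lm_star (h : Hyp F m) (a b : F) :
    star4 (Lm m a b) = (Lm m a b).map (fun x => x ^ (2 ^ (m + 1))) := by
  have h2 := h.two_eq_zero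
  have h1 : (1 : F) ^ (2 ^ (m + 1)) = 1 := one_pow _
  have h0 : (0 : F) ^ (2 ^ (m + 1)) = 0 := zero_pow (by positivity)
  have hf := fz_pow_sg h a b
  have hf2 := fz_def m a b
  have hb : (b + a ^ 2 ^ (m + 1) * a) ^ 2 ^ (m + 1) = b ^ 2 ^ (m + 1) + a ^ 2 * a ^ 2 ^ (m + 1) := by
    rw [h.add_pow_sg, mul_pow, h.pow_sg_sg]
  have hA := h.pow_sg_sg a
  ext p r
  fin_cases p <;> fin_cases r <;> simp [star4, pairOf, Lm, Matrix.map_apply, h1, h0]
  all_goals
    first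
    | rw [hb]
    | rw [hf]
    | rw [hA]
    | skip
  all_goals
    try rw [hf2]
    generalize a ^ 2 ^ (m + 1) = A at *
    generalize b ^ 2 ^ (m + 1) = B at *
    grind

/-- Diagonal elements. -/
theorem Dm_sp (h : Hyp F m) {k : F} (hk : k ≠ 0) (u v : Fin 4 → F) :
    altForm4 (Dm m k *ᵥ u) (Dm m k *ᵥ v) = altForm4 u v := by
  have h1 : k ^ 2 ^ m ≠ 0 := pow_ne_zero _ hk
  simp only [altForm4, Dm, Matrix.mulVec, dotProduct, Fin.sum_univ_four]
  simp
  field_simp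

theorem Dm_star (h : Hyp F m) {k : F} (hk : k ≠ 0) :
    star4 (Dm m k) = (Dm m k).map (fun x => x ^ (2 ^ (m + 1))) := by
  have h1 : k ^ 2 ^ m ≠ 0 := pow_ne_zero _ hk
  have h0 : (0 : F) ^ (2 ^ (m + 1)) = 0 := zero_pow (by positivity)
  have e1 : (k ^ 2 ^ m) ^ 2 ^ (m + 1) = k := by
    rw [← pow_mul, show 2 ^ m * 2 ^ (m + 1) = 2 ^ (2 * m + 1) by ring]
    exact h.pow_card k
  have e2 : (k ^ 2 ^ m) * (k ^ 2 ^ m) = k ^ 2 ^ (m + 1) := by
    rw [← pow_add]; congr 1; ring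
  ext p r
  fin_cases p <;> fin_cases r <;> simp [star4, pairOf, Dm, Matrix.map_apply, h0, e1, mul_pow]
  all_goals
    try rw [← e2]
    generalize k ^ 2 ^ m = u at *
    field_simp

theorem Tm_sp (u v : Fin 4 → F) :
    altForm4 (Tm F *ᵥ u) (Tm F *ᵥ v) = altForm4 u v := by
  simp only [altForm4, Tm, Matrix.mulVec, dotProduct, Fin.sum_univ_four]
  simp
  ring

theorem Tm_star (h : Hyp F m) :
    star4 (Tm F) = (Tm F).map (fun x => x ^ (2 ^ (m + 1))) := by
  have h2 := h.two_eq_zero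
  have hneg : (-1 : F) = 1 := by linear_combination -h2
  have h0 : (0 : F) ^ (2 ^ (m + 1)) = 0 := zero_pow (by positivity)
  ext p r
  fin_cases p <;> fin_cases r <;> simp [star4, pairOf, Tm, Matrix.map_apply, h0, hneg]

theorem L_mem (h : Hyp F m) (a b : F) :
    Matrix.SpecialLinearGroup.toGL (LS m a b) ∈ Cfsg.Lie.Sz F (2 ^ (m + 1)) :=
  Subgroup.subset_closure ⟨fun u v => Lm_sp h a b u v, Lm_star h a b⟩

theorem D_mem (h : Hyp F m) (k : Fˣ) :
    Matrix.SpecialLinearGroup.toGL (DS m k) ∈ Cfsg.Lie.Sz F (2 ^ (m + 1)) :=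
  Subgroup.subset_closure ⟨fun u v => Dm_sp h k.ne_zero u v, Dm_star h k.ne_zero⟩

theorem T_mem (h : Hyp F m) :
    Matrix.SpecialLinearGroup.toGL (TS F) ∈ Cfsg.Lie.Sz F (2 ^ (m + 1)) :=
  Subgroup.subset_closure ⟨fun u v => Tm_sp u v, Tm_star h⟩

theorem mem_lieSz (h : Hyp F m) (g : G F m) :
    Matrix.SpecialLinearGroup.toGL g.1 ∈ Cfsg.Lie.Sz F (2 ^ (m + 1)) := by
  rcases bruhat h g with ⟨a, b, k, rfl⟩ | ⟨a, b, c, d, k, rfl⟩
  · change Matrix.SpecialLinearGroup.toGL (LS m a b * DS m k) ∈ _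
    rw [map_mul]
    exact mul_mem (L_mem h a b) (D_mem h k)
  · change Matrix.SpecialLinearGroup.toGL (LS m a b * TS F * (LS m c d * DS m k)) ∈ _
    simp only [map_mul]
    exact mul_mem (mul_mem (L_mem h a b) (T_mem h)) (mul_mem (L_mem h c d) (D_mem h k))

/-- The embedding of the ovoid model into the matrix model. -/
def toLie (h : Hyp F m) : G F m →* Cfsg.Lie.Sz F (2 ^ (m + 1)) :=
  (Matrix.SpecialLinearGroup.toGL.comp (Cfsg.Sz F m).subtype).codRestrict _ (mem_lieSz h)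

theorem toLie_injective (h : Hyp F m) : Function.Injective (toLie h) := fun a b hab => by
  apply Subtype.ext
  apply Matrix.SpecialLinearGroup.toGL_injective
  exact congrArg Subtype.val hab

end Cfsg.Agent.Lib.Suzuki.LieEmbed
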