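import Cfsg.Agent.Lib.Suzuki.Gen
import Cfsg.Agent.Lib.Suzuki.Sub
import Mathlib.Analysis.Fourier.FiniteAbelian.PontryaginDuality
import Mathlib.NumberTheory.LegendreSymbol.AddCharacter
import Mathlib.RepresentationTheory.Irreducible

/-! The minimal degree of a nontrivial complex representation of the Suzuki group. -/

set_option autoImplicit false
set_option linter.unusedSectionVars false
set_option linter.deprecated false
set_option linter.unusedSimpArgs false

namespace Cfsg.Agent.Lib.Suzuki.Rep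

open Cfsg.Agent.Lib.Suzuki.Basic Cfsg.Agent.Lib.Suzuki.Struct
  Cfsg.Agent.Lib.Suzuki.Order Cfsg.Agent.Lib.Suzuki.Sub
open scoped BigOperators

variable {F : Type*} [Field F] [Fintype F] {m : ℕ} (h : Hyp F m)
variable {V : Type*} [AddCommGroup V] [Module ℂ V] (ρ : Representation ℂ (G F m) V)

/-- The weight space of a character of the centre `Z`. -/
def Vc (χ : AddChar F ℂ) : Submodule ℂ V where
  carrier := {v | ∀ b, ρ (Lg h 0 b) v = χ b • v}
  add_mem' := by
    intro v w hv hw b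
    rw [map_add, hv b, hw b, smul_add]
  zero_mem' := by
    intro b
    simp
  smul_mem' := by
    intro c v hv b
    rw [map_smul, hv b, smul_comm]

theorem mem_Vc {χ : AddChar F ℂ} {v : V} : v ∈ Vc h ρ χ ↔ ∀ b, ρ (Lg h 0 b) v = χ b • v := Iff.rfl

theorem Lg_zero_mul (c b : F) : Lg h 0 c * Lg h 0 b = Lg h 0 (c + b) := by
  rw [Lg_mul h, add_zero, zero_pow_sg h, zero_mul, add_zero]

theorem rho_Lg_zero (c b : F) (v : V) : ρ (Lg h 0 c) (ρ (Lg h 0 b) v) = ρ (Lg h 0 (c + b)) v := by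
  rw [← Module.End.mul_apply, ← map_mul, Lg_zero_mul h]

theorem rho_zero (v : V) : ρ (Lg h 0 0) v = v := by
  rw [Lg_zero h, map_one]
  rfl

/-- The projection to a weight space. -/
noncomputable def Pc (χ : AddChar F ℂ) : V →ₗ[ℂ] V :=
  (Fintype.card F : ℂ)⁻¹ • ∑ b : F, χ (-b) • ρ (Lg h 0 b)

theorem Pc_apply (χ : AddChar F ℂ) (v : V) :
    Pc h ρ χ v = (Fintype.card F : ℂ)⁻¹ • ∑ b : F, χ (-b) • ρ (Lg h 0 b) v := by
  simp [Pc, LinearMap.sum_apply]

theorem card_ne_zero : (Fintype.card F : ℂ) ≠ 0 := Nat.cast_ne_zero.mpr Fintype.card_ne_zero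

theorem Pc_mem (χ : AddChar F ℂ) (v : V) : Pc h ρ χ v ∈ Vc h ρ χ := by
  intro c
  rw [Pc_apply, map_smul, map_sum, smul_comm]
  congr 1
  have e : ∀ b : F, ρ (Lg h 0 c) (χ (-b) • ρ (Lg h 0 b) v) =
      χ c • (χ (-(c + b)) • ρ (Lg h 0 (c + b)) v) := by
    intro b
    rw [map_smul, rho_Lg_zero h, smul_smul, ← AddChar.map_add_eq_mul]
    congr 2
    ring
  simp_rw [e]
  rw [← Finset.smul_sum]
  congr 1
  exact Equiv.sum_comp (Equiv.addLeft c) (fun b => χ (-b) • ρ (Lg h 0 b) v)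

theorem sum_Pc (c : F) (v : V) : ∑ χ : AddChar F ℂ, χ c • Pc h ρ χ v = ρ (Lg h 0 c) v := by
  classical
  have key : ∀ χ : AddChar F ℂ, χ c • Pc h ρ χ v =
      (Fintype.card F : ℂ)⁻¹ • ∑ b, χ (c - b) • ρ (Lg h 0 b) v := by
    intro χ
    rw [Pc_apply, smul_comm, Finset.smul_sum]
    congr 1
    apply Finset.sum_congr rfl
    intro b _
    rw [smul_smul, ← AddChar.map_add_eq_mul, sub_eq_add_neg]
  simp_rw [key]
  rw [← Finset.smul_sum, Finset.sum_comm]
  simp_rw [← Finset.sum_smul, AddChar.sum_apply_eq_ite, sub_eq_zero]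
  rw [Finset.sum_eq_single c]
  · rw [if_pos rfl, smul_smul, inv_mul_cancel₀ (card_ne_zero (F := F)), one_smul]
  · intro b _ hb
    rw [if_neg (Ne.symm hb), zero_smul]
  · simp

theorem Pc_of_mem {χ : AddChar F ℂ} {v : V} (hv : v ∈ Vc h ρ χ) : Pc h ρ χ v = v := by
  have e : ∀ b : F, χ (-b) • ρ (Lg h 0 b) v = v := by
    intro b
    rw [hv b, smul_smul, ← AddChar.map_add_eq_mul, neg_add_cancel, AddChar.map_zero_eq_one, one_smul]
  rw [Pc_apply]
  simp_rw [e]
  rw [Finset.sum_const, Finset.card_univ, ← Nat.cast_smul_eq_nsmul ℂ, smul_smul,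
    inv_mul_cancel₀ (card_ne_zero (F := F)), one_smul]

theorem Pc_of_mem_ne {χ χ' : AddChar F ℂ} {v : V} (hv : v ∈ Vc h ρ χ') (hne : χ ≠ χ') : Pc h ρ χ v = 0 := by
  classical
  have e : ∀ b : F, χ (-b) • ρ (Lg h 0 b) v = (χ⁻¹ * χ') b • v := by
    intro b
    rw [hv b, smul_smul, AddChar.mul_apply, AddChar.inv_apply]
  rw [Pc_apply]
  simp_rw [e]
  rw [← Finset.sum_smul]
  have h1 : χ⁻¹ * χ' ≠ 0 := by
    intro hc
    apply hne
    have h2 : χ⁻¹ * χ' = 1 := hc
    exact (inv_mul_eq_one.mp h2)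
  rw [AddChar.sum_eq_zero_iff_ne_zero.mpr h1, zero_smul, smul_zero]

/-- A nontrivial central element yields a nontrivial weight. -/
theorem exists_char (hρ : ρ (Lg h 0 1) ≠ 1) : ∃ χ : AddChar F ℂ, χ ≠ 1 ∧ Vc h ρ χ ≠ ⊥ := by
  classical
  by_contra hc
  push Not at hc
  apply hρ
  ext v
  have all : ∀ c : F, ρ (Lg h 0 c) v = Pc h ρ 1 v := by
    intro c
    rw [← sum_Pc h ρ c v, Finset.sum_eq_single 1]
    · simp
    · intro χ _ hχ
      have h1 : Pc h ρ χ v = 0 := by
        have h2 := Pc_mem h ρ χ v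
        rw [hc χ hχ] at h2
        exact (Submodule.mem_bot ℂ).mp h2
      rw [h1, smul_zero]
    · simp
  rw [all 1, ← all 0, rho_zero h]
  rfl

/-- Independence of weight spaces. -/
theorem Vc_indep : iSupIndep (fun χ : AddChar F ℂ => Vc h ρ χ) := by
  intro χ
  rw [Submodule.disjoint_def]
  intro v hv hv'
  have h1 : (⨆ j, ⨆ (_ : j ≠ χ), Vc h ρ j) ≤ LinearMap.ker (Pc h ρ χ) := by
    apply iSup₂_le
    intro j hj w hw
    exact Pc_of_mem_ne h ρ hw (Ne.symm hj)
  have h2 := h1 hv'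
  rw [LinearMap.mem_ker, Pc_of_mem h ρ hv] at h2
  exact h2

/-- Elements of `U` preserve the weight spaces. -/
theorem Lg_mem_Vc {χ : AddChar F ℂ} {v : V} (hv : v ∈ Vc h ρ χ) (a e : F) : ρ (Lg h a e) v ∈ Vc h ρ χ := by
  intro b
  rw [← Module.End.mul_apply, ← map_mul, Lg_zero_comm h b a e, map_mul, Module.End.mul_apply, hv b, map_smul]

/-- The restriction of the action of `U` to a weight space. -/
noncomputable def tau (χ : AddChar F ℂ) (a e : F) : Module.End ℂ (Vc h ρ χ) :=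
  (ρ (Lg h a e)).restrict (fun _ hv => Lg_mem_Vc h ρ hv a e)

theorem tau_apply (χ : AddChar F ℂ) (a e : F) (v : Vc h ρ χ) :
    ((tau h ρ χ a e v : Vc h ρ χ) : V) = ρ (Lg h a e) v := rfl

theorem tau_mul (χ : AddChar F ℂ) (a e c d : F) :
    tau h ρ χ a e * tau h ρ χ c d = tau h ρ χ (a + c) (e + d + a ^ (2 ^ (m + 1)) * c) := by
  ext v
  rw [Module.End.mul_apply, tau_apply, tau_apply, tau_apply, ← Module.End.mul_apply, ← map_mul, Lg_mul h]

theorem tau_zero (χ : AddChar F ℂ) (b : F) : tau h ρ χ 0 b = χ b • (1 : Module.End ℂ (Vc h ρ χ)) := by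
  ext v
  rw [tau_apply, v.2 b]
  rfl

theorem tau_one (χ : AddChar F ℂ) : tau h ρ χ 0 0 = 1 := by
  rw [tau_zero, AddChar.map_zero_eq_one, one_smul]

/-- The key trace vanishing. -/
theorem tr_tau [FiniteDimensional ℂ V] {χ : AddChar F ℂ} {d c : F} (e : F)
    (hβ : χ (c ^ (2 ^ (m + 1)) * d + d ^ (2 ^ (m + 1)) * c) ≠ 1) :
    LinearMap.trace ℂ (Vc h ρ χ) (tau h ρ χ d e) = 0 := by
  set β := c ^ (2 ^ (m + 1)) * d + d ^ (2 ^ (m + 1)) * c with hβdef
  set X := tau h ρ χ d e with hX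
  set Y := tau h ρ χ c 0 with hY
  set Y' := tau h ρ χ c (c ^ (2 ^ (m + 1)) * c) with hY'
  have h2 : Y' * Y = 1 := by
    rw [hY, hY', tau_mul, h.add_self, add_zero, h.add_self, tau_one]
  have h2' : Y * Y' = 1 := by
    rw [hY, hY', tau_mul, h.add_self, zero_add, h.add_self, tau_one]
  have h1 : Y * X = χ β • (X * Y) := by
    have h3 : χ β • (X * Y) = tau h ρ χ 0 β * (X * Y) := by
      rw [tau_zero, smul_mul_assoc, one_mul]
    rw [h3, hX, hY, tau_mul, tau_mul, tau_mul, zero_add, zero_pow_sg h, zero_mul, add_zero, add_zero, zero_add]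
    congr 1
    · exact add_comm _ _
    · rw [hβdef]
      have h4 := h.add_self (d ^ (2 ^ (m + 1)) * c)
      linear_combination (-1 : F) * h4
  have h3 : LinearMap.trace ℂ (Vc h ρ χ) (Y * X * Y') = LinearMap.trace ℂ (Vc h ρ χ) X := by
    rw [mul_assoc, LinearMap.trace_mul_comm, mul_assoc, h2, mul_one]
  have h4 : Y * X * Y' = χ β • X := by
    rw [h1, smul_mul_assoc, mul_assoc, h2', mul_one]
  rw [h4, map_smul, smul_eq_mul] at h3
  have h5 : (χ β - 1) * LinearMap.trace ℂ (Vc h ρ χ) X = 0 := by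
    rw [sub_mul, h3, one_mul, sub_self]
  rcases mul_eq_zero.mp h5 with h6 | h6
  · exact absurd (sub_eq_zero.mp h6) hβ
  · exact h6

/-- The radical of the commutator pairing of a character. -/
def Rad (χ : AddChar F ℂ) : AddSubgroup F where
  carrier := {a | ∀ c : F, χ (c ^ (2 ^ (m + 1)) * a + a ^ (2 ^ (m + 1)) * c) = 1}
  zero_mem' := by
    intro c
    rw [mul_zero, zero_pow_sg h, zero_mul, add_zero, AddChar.map_zero_eq_one]
  add_mem' := by
    intro a a' ha ha' c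
    have e : c ^ (2 ^ (m + 1)) * (a + a') + (a + a') ^ (2 ^ (m + 1)) * c =
        (c ^ (2 ^ (m + 1)) * a + a ^ (2 ^ (m + 1)) * c) +
          (c ^ (2 ^ (m + 1)) * a' + a' ^ (2 ^ (m + 1)) * c) := by
      rw [h.add_pow_sg]
      ring
    rw [e, AddChar.map_add_eq_mul, ha, ha', one_mul]
  neg_mem' := by
    intro a ha
    rwa [h.neg_eq]

theorem mem_Rad {χ : AddChar F ℂ} {a : F} :
    a ∈ Rad h χ ↔ ∀ c : F, χ (c ^ (2 ^ (m + 1)) * a + a ^ (2 ^ (m + 1)) * c) = 1 := Iff.rfl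

/-- Nonzero radical elements give a fixed shift. -/
theorem Rad_shift {χ : AddChar F ℂ} {a : F} (ha : a ∈ Rad h χ) (h0 : a ≠ 0) (d : F) :
    χ (a⁻¹ * d ^ (2 ^ (m + 1))) * χ d = 1 := by
  have hs : a ^ (2 ^ (m + 1)) ≠ 0 := pow_ne_zero _ h0
  have h1 := ha (d / a ^ (2 ^ (m + 1)))
  have e : (d / a ^ (2 ^ (m + 1))) ^ (2 ^ (m + 1)) * a + a ^ (2 ^ (m + 1)) * (d / a ^ (2 ^ (m + 1))) =
      a⁻¹ * d ^ (2 ^ (m + 1)) + d := by
    rw [div_pow, h.pow_sg_sg a]
    field_simp
  rw [e, AddChar.map_add_eq_mul] at h1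
  exact h1

theorem Rad_unique {χ : AddChar F ℂ} (hχ : χ ≠ 1) {a a' : F} (ha : a ∈ Rad h χ) (ha' : a' ∈ Rad h χ)
    (h0 : a ≠ 0) (h0' : a' ≠ 0) : a = a' := by
  have hsurj : Function.Surjective (fun x : F => x ^ (2 ^ (m + 1))) :=
    Finite.surjective_of_injective (fun x y hxy => h.pow_sg_inj hxy)
  have hprim : χ.IsPrimitive := AddChar.IsPrimitive.of_ne_one hχ
  have h1 : χ.mulShift a⁻¹ = χ.mulShift a'⁻¹ := by
    ext e
    obtain ⟨d, rfl⟩ := hsurj e
    rw [AddChar.mulShift_apply, AddChar.mulShift_apply]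
    have h2 := Rad_shift h ha h0 d
    have h3 := Rad_shift h ha' h0' d
    have h4 : χ d ≠ 0 := by
      intro hc
      rw [hc, mul_zero] at h2
      exact zero_ne_one h2
    exact mul_right_cancel₀ h4 (h2.trans h3.symm)
  have h2 := AddChar.to_mulShift_inj_of_isPrimitive hprim h1
  exact inv_injective h2

theorem card_Rad_le {χ : AddChar F ℂ} (hχ : χ ≠ 1) : Nat.card (Rad h χ) ≤ 2 := by
  classical
  have hinj : Function.Injective (fun a : Rad h χ => decide ((a : F) = 0)) := by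
    intro a a' he
    apply Subtype.ext
    by_cases h1 : (a : F) = 0
    · have h2 : (a' : F) = 0 := by
        simpa [h1] using he.symm
      rw [h1, h2]
    · have h2 : (a' : F) ≠ 0 := by
        intro h3
        simp [h1, h3] at he
      exact Rad_unique h hχ a.2 a'.2 h1 h2
  have := Nat.card_le_card_of_injective _ hinj
  simpa using this

/-- The dimension of a nontrivial weight space is at least `2^m`. -/
theorem finrank_Vc [FiniteDimensional ℂ V] {χ : AddChar F ℂ} (hχ : χ ≠ 1) (hne : Vc h ρ χ ≠ ⊥) :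
    2 ^ m ≤ Module.finrank ℂ (Vc h ρ χ) := by
  classical
  set R := Rad h χ with hR
  have hfin : Fintype (F ⧸ R) := Fintype.ofFinite _
  have hpos : Module.finrank ℂ (Vc h ρ χ) ≠ 0 := by
    intro hc
    exact hne (Submodule.finrank_eq_zero.mp hc)
  let E : F ⧸ R → Module.End ℂ (Vc h ρ χ) := fun y => tau h ρ χ (Quotient.out y) (Quotient.out y ^ (2 ^ (m + 1)) * Quotient.out y)
  let f : F ⧸ R → Module.End ℂ (Vc h ρ χ) := fun y => tau h ρ χ (Quotient.out y) 0
  have hE : ∀ x y : F ⧸ R, LinearMap.trace ℂ (Vc h ρ χ) (f x * E y) =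
      if x = y then (Module.finrank ℂ (Vc h ρ χ) : ℂ) else 0 := by
    intro x y
    simp only [f, E]
    rw [tau_mul]
    split_ifs with hxy
    · subst hxy
      rw [h.add_self, zero_add, h.add_self, tau_one, LinearMap.trace_one]
    · have hnot : Quotient.out x + Quotient.out y ∉ R := by
        intro hc
        apply hxy
        have h1 : ((Quotient.out x : F) : F ⧸ R) = ((Quotient.out y : F) : F ⧸ R) := by
          rw [QuotientAddGroup.eq, h.neg_eq]
          exact hc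
        rwa [QuotientAddGroup.out_eq', QuotientAddGroup.out_eq'] at h1
      have hnot' : ∃ c : F, χ (c ^ (2 ^ (m + 1)) * (Quotient.out x + Quotient.out y) +
          (Quotient.out x + Quotient.out y) ^ (2 ^ (m + 1)) * c) ≠ 1 := by
        by_contra hc
        push Not at hc
        exact hnot hc
      obtain ⟨c, hc⟩ := hnot'
      exact tr_tau h ρ _ hc
  have hind : LinearIndependent ℂ f := by
    rw [Fintype.linearIndependent_iff]
    intro g hg y
    have h1 := congrArg (fun X => LinearMap.trace ℂ (Vc h ρ χ) (X * E y)) hg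
    simp only [Finset.sum_mul, map_sum, smul_mul_assoc, map_smul, hE, zero_mul, map_zero, smul_eq_mul] at h1
    rw [Finset.sum_eq_single y] at h1
    · rw [if_pos rfl] at h1
      rcases mul_eq_zero.mp h1 with h2 | h2
      · exact h2
      · exact absurd (Nat.cast_eq_zero.mp h2) hpos
    · intro b _ hb
      rw [if_neg hb, mul_zero]
    · simp
  have h1 := hind.fintype_card_le_finrank
  rw [Module.finrank_linearMap] at h1
  have h2 : Nat.card F = Nat.card (F ⧸ R) * Nat.card R := AddSubgroup.card_eq_card_quotient_mul_card_addSubgroup R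
  rw [Nat.card_eq_fintype_card, h.hF, Nat.card_eq_fintype_card (α := F ⧸ R)] at h2
  have h3 := card_Rad_le h hχ
  have h4 : 2 ^ (2 * m) ≤ Fintype.card (F ⧸ R) := by
    have h5 : (2 : ℕ) ^ (2 * m + 1) ≤ Fintype.card (F ⧸ R) * 2 := by
      rw [h2]
      exact Nat.mul_le_mul_left _ h3
    rw [pow_succ] at h5
    omega
  by_contra hc
  push Not at hc
  have h5 : Module.finrank ℂ (Vc h ρ χ) * Module.finrank ℂ (Vc h ρ χ) < 2 ^ m * 2 ^ m :=
    Nat.mul_self_lt_mul_self hc
  have h6 : 2 ^ (2 * m) = 2 ^ m * 2 ^ m := by rw [two_mul, pow_add]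
  omega

/-- The torus permutes the weight spaces. -/
theorem D_mem {χ : AddChar F ℂ} (k : Fˣ) {v : V} (hv : v ∈ Vc h ρ χ) :
    ρ (Dg h k) v ∈ Vc h ρ (χ.mulShift ((k : F) ^ (2 ^ (m + 1)) * (k : F))⁻¹) := by
  intro b
  have hc : (k : F) ^ (2 ^ (m + 1)) * (k : F) ≠ 0 := mul_ne_zero (pow_ne_zero _ k.ne_zero) k.ne_zero
  have e : Lg h 0 b * Dg h k = Dg h k * Lg h 0 (((k : F) ^ (2 ^ (m + 1)) * (k : F))⁻¹ * b) := by
    have h1 := Dg_mul_Lg h k 0 (((k : F) ^ (2 ^ (m + 1)) * (k : F))⁻¹ * b)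
    rw [mul_zero, ← mul_assoc, mul_inv_cancel₀ hc, one_mul] at h1
    exact h1.symm
  rw [← Module.End.mul_apply, ← map_mul, e, map_mul, Module.End.mul_apply, hv, map_smul, AddChar.mulShift_apply]

theorem finrank_shift [FiniteDimensional ℂ V] (χ : AddChar F ℂ) (k : Fˣ) :
    Module.finrank ℂ (Vc h ρ χ) ≤
      Module.finrank ℂ (Vc h ρ (χ.mulShift ((k : F) ^ (2 ^ (m + 1)) * (k : F))⁻¹)) := by
  apply LinearMap.finrank_le_finrank_of_injective
    (f := (ρ (Dg h k)).restrict (fun _ hv => D_mem h ρ k hv))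
  intro v w hvw
  have h1 : ρ (Dg h k) v = ρ (Dg h k) w := congrArg Subtype.val hvw
  have h2 := congrArg (ρ (Dg h k)⁻¹) h1
  rw [← Module.End.mul_apply, ← Module.End.mul_apply, ← map_mul, inv_mul_cancel, map_one] at h2
  exact Subtype.ext h2

include h in
/-- The shifted characters are distinct. -/
theorem shift_inj {χ : AddChar F ℂ} (hχ : χ ≠ 1) :
    Function.Injective (fun k : Fˣ => χ.mulShift ((k : F) ^ (2 ^ (m + 1)) * (k : F))⁻¹) := by
  intro k l he
  have hprim : χ.IsPrimitive := AddChar.IsPrimitive.of_ne_one hχ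
  have h1 := AddChar.to_mulShift_inj_of_isPrimitive hprim he
  have h2 := inv_injective h1
  exact Units.ext (pow_sg_mul_self_inj h h2)

/-- The main bound. -/
theorem rep_bound [FiniteDimensional ℂ V] (hρ : ρ (Lg h 0 1) ≠ 1) :
    2 ^ m * (2 ^ (2 * m + 1) - 1) ≤ Module.finrank ℂ V := by
  classical
  obtain ⟨χ, hχ, hne⟩ := exists_char h ρ hρ
  have h1 := finrank_Vc h ρ hχ hne
  let W : Fˣ → Submodule ℂ V := fun k => Vc h ρ (χ.mulShift ((k : F) ^ (2 ^ (m + 1)) * (k : F))⁻¹)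
  have hind : iSupIndep W := (Vc_indep h ρ).comp (shift_inj h hχ)
  have h2 := hind.dfinsupp_lsum_injective
  have h3 := LinearMap.finrank_le_finrank_of_injective h2
  have h4 : Module.finrank ℂ (Π₀ k, W k) = ∑ k, Module.finrank ℂ (W k) :=
    Module.finrank_directSum ℂ (fun k => W k)
  rw [h4] at h3
  have h5 : ∑ k : Fˣ, 2 ^ m ≤ ∑ k, Module.finrank ℂ (W k) :=
    Finset.sum_le_sum (fun k _ => h1.trans (finrank_shift h ρ χ k))
  rw [Finset.sum_const, Finset.card_univ, smul_eq_mul, Fintype.card_units, h.hF] at h5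
  rw [mul_comm]
  exact h5.trans h3

end Cfsg.Agent.Lib.Suzuki.Rep
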