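import Cfsg.Agent.Lib.Suzuki.Solub4

/-! The solubiliser of an element of order four. -/

set_option autoImplicit false
set_option linter.unusedSectionVars false
set_option linter.deprecated false
set_option linter.unusedSimpArgs false

namespace Cfsg.Agent.Lib.Suzuki.Solub5

open Cfsg.Agent.Lib.Suzuki.Basic Cfsg.Agent.Lib.Suzuki.Group Cfsg.Agent.Lib.Suzuki.Struct
  Cfsg.Agent.Lib.Suzuki.Order Cfsg.Agent.Lib.Suzuki.Zass Cfsg.Agent.Lib.Suzuki.Sub
  Cfsg.Agent.Lib.Suzuki.Syl Cfsg.Agent.Lib.Suzuki.Gen Cfsg.Agent.Lib.Suzuki.Fix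
  Cfsg.Agent.Lib.Suzuki.Cent Cfsg.Agent.Lib.Suzuki.Types Cfsg.Agent.Lib.Suzuki.Tori1
  Cfsg.Agent.Lib.Suzuki.Tori2 Cfsg.Agent.Lib.Suzuki.Tori3 Cfsg.Agent.Lib.Suzuki.Part
  Cfsg.Agent.Lib.Suzuki.SubAbs Cfsg.Agent.Lib.Suzuki.SubG Cfsg.Agent.Lib.Suzuki.SubOdd
  Cfsg.Agent.Lib.Suzuki.SubMain Cfsg.Agent.Lib.Suzuki.SubEmb Cfsg.Agent.Lib.Suzuki.Classify
  Cfsg.Agent.Lib.Suzuki.Fixity Cfsg.Agent.Lib.Suzuki.Solub Cfsg.Agent.Lib.Suzuki.Solub2
  Cfsg.Agent.Lib.Suzuki.Solub3 Cfsg.Agent.Lib.Suzuki.Solub4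
open scoped Pointwise BigOperators commutatorElement

theorem four_eq {A : Type*} [Monoid A] (u : A) : u * u * (u * u) = u ^ 4 := by
  simp only [pow_succ, pow_zero, one_mul, mul_assoc]

variable {F : Type*} [Field F] [Fintype F] {m : ℕ} (h : Hyp F m)

theorem cm_inv {x y : G F m} (hc : cm x y) : cm x⁻¹ y := by
  have hc' : x * y * x⁻¹ * y = y * (x * y * x⁻¹) := hc
  change x⁻¹ * y * x⁻¹⁻¹ * y = y * (x⁻¹ * y * x⁻¹⁻¹)
  rw [inv_inv]
  calc x⁻¹ * y * x * y = x⁻¹ * (y * (x * y * x⁻¹)) * x := by group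
    _ = x⁻¹ * (x * y * x⁻¹ * y) * x := by rw [hc']
    _ = _ := by group

theorem cm_conj {x y : G F m} (hc : cm x y) (g : G F m) : cm (g * x * g⁻¹) (g * y * g⁻¹) := by
  have hc' : x * y * x⁻¹ * y = y * (x * y * x⁻¹) := hc
  change g * x * g⁻¹ * (g * y * g⁻¹) * (g * x * g⁻¹)⁻¹ * (g * y * g⁻¹) =
    g * y * g⁻¹ * (g * x * g⁻¹ * (g * y * g⁻¹) * (g * x * g⁻¹)⁻¹)
  calc g * x * g⁻¹ * (g * y * g⁻¹) * (g * x * g⁻¹)⁻¹ * (g * y * g⁻¹) = g * (x * y * x⁻¹ * y) * g⁻¹ := by group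
    _ = g * (y * (x * y * x⁻¹)) * g⁻¹ := by rw [hc']
    _ = _ := by group

theorem Yt_inv (x : G F m) : Yt x⁻¹ = Yt x := by
  ext y
  constructor
  · rintro ⟨hf, hc⟩
    have := cm_inv hc
    rw [inv_inv] at this
    exact ⟨hf, this⟩
  · rintro ⟨hf, hc⟩
    exact ⟨hf, cm_inv hc⟩

theorem Yt_conj (x g : G F m) : (Yt (g * x * g⁻¹)).ncard = (Yt x).ncard := by
  have himg : Yt (g * x * g⁻¹) = (fun y => g * y * g⁻¹) '' Yt x := by
    ext y
    constructor
    · rintro ⟨hf, hc⟩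
      refine ⟨g⁻¹ * y * g, ⟨?_, ?_⟩, by group⟩
      · have := fpf_conj hf g⁻¹
        simpa using this
      · have h1 := cm_conj hc g⁻¹
        have e1 : g⁻¹ * (g * x * g⁻¹) * g⁻¹⁻¹ = x := by group
        have e2 : g⁻¹ * y * g⁻¹⁻¹ = g⁻¹ * y * g := by group
        rwa [e1, e2] at h1
    · rintro ⟨y, ⟨hf, hc⟩, rfl⟩
      exact ⟨fpf_conj hf g, cm_conj hc g⟩
  rw [himg]
  apply Set.ncard_image_of_injective
  intro a b he
  have he' : g * a * g⁻¹ = g * b * g⁻¹ := he
  simpa using he'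

include h

/-- The map `t ↦ t^σ + t`. -/
noncomputable def psi : F →+ F where
  toFun t := t ^ (2 ^ (m + 1)) + t
  map_zero' := by rw [zero_pow_sg h, zero_add]
  map_add' a b := by
    rw [h.add_pow_sg]
    ring

theorem psi_apply (t : F) : psi h t = t ^ (2 ^ (m + 1)) + t := rfl

/-- Every element or its translate by `1` is in the image of `t ↦ t^σ + t`. -/
theorem psi_cover (v : F) : (∃ t : F, t ^ (2 ^ (m + 1)) + t = v) ∨ (∃ t : F, t ^ (2 ^ (m + 1)) + t = v + 1) := by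
  classical
  have hone : (1 : F) ∉ (psi h).range := by
    rintro ⟨t, ht⟩
    rw [psi_apply] at ht
    have h1 : t ^ (2 ^ (m + 1)) = t + 1 := by
      have h2 := h.add_self t
      linear_combination ht - h2
    have h3 : t ^ 2 = t := by
      have h4 := h.pow_sg_sg t
      rw [h1, h.add_pow_sg, h1, one_pow] at h4
      have h5 := h.add_self (1 : F)
      rw [← h4]
      linear_combination h5
    have h6 : t * (t - 1) = 0 := by linear_combination h3
    have h7 : t = 0 ∨ t = 1 := by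
      rcases mul_eq_zero.mp h6 with h8 | h8
      · exact Or.inl h8
      · exact Or.inr (sub_eq_zero.mp h8)
    rcases h7 with rfl | rfl
    · rw [zero_pow_sg h, zero_add] at ht
      exact zero_ne_one ht
    · rw [one_pow, h.add_self] at ht
      exact zero_ne_one ht
  have hker : Nat.card (psi h).ker = 2 := by
    have hset : ((psi h).ker : Set F) = {0, 1} := by
      ext t
      simp only [SetLike.mem_coe, AddMonoidHom.mem_ker, psi_apply, Set.mem_insert_iff, Set.mem_singleton_iff]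
      constructor
      · intro ht
        exact h.fixed_of_pow_sg (h.eq_of_add_eq_zero ht)
      · rintro (rfl | rfl)
        · rw [zero_pow_sg h, zero_add]
        · rw [one_pow, h.add_self]
    have h1 : Nat.card (psi h).ker = ((psi h).ker : Set F).ncard := (Nat.card_coe_set_eq _).symm
    rw [h1, hset, Set.ncard_pair zero_ne_one]
  have hidx : (psi h).range.index = 2 := by
    have h1 := AddSubgroup.index_mul_card (psi h).range
    have h2 := AddSubgroup.index_mul_card (psi h).ker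
    rw [AddSubgroup.index_ker, hker] at h2
    have hpos : 0 < Nat.card (psi h).range := Nat.card_pos
    have h3 : (psi h).range.index * Nat.card (psi h).range = 2 * Nat.card (psi h).range := by
      rw [h1, ← h2, mul_comm]
    exact Nat.eq_of_mul_eq_mul_right hpos h3
  by_cases hv : v ∈ (psi h).range
  · left
    obtain ⟨t, ht⟩ := hv
    exact ⟨t, ht⟩
  · right
    have h1 : v + 1 ∈ (psi h).range := by
      rw [AddSubgroup.add_mem_iff_of_index_two hidx]
      exact iff_of_false hv hone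
    obtain ⟨t, ht⟩ := h1
    exact ⟨t, ht⟩

/-- The conjugation of `L(a,b)`: all elements `L(a,e)`, up to inverse. -/
theorem conj_cover {a : F} (ha : a ≠ 0) (b e : F) :
    ∃ c : F, Lg h c 0 * Lg h a b * (Lg h c 0)⁻¹ = Lg h a e ∨ Lg h c 0 * (Lg h a b)⁻¹ * (Lg h c 0)⁻¹ = Lg h a e := by
  set κ := a ^ (2 ^ (m + 1)) * a with hκ
  have hκ0 : κ ≠ 0 := mul_ne_zero (pow_ne_zero _ ha) ha
  have hc : ∀ t : F, (a * t) ^ (2 ^ (m + 1)) * a + a ^ (2 ^ (m + 1)) * (a * t) = κ * (t ^ (2 ^ (m + 1)) + t) := by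
    intro t
    rw [mul_pow, hκ]
    ring
  rcases psi_cover h ((e + b) / κ) with ⟨t, ht⟩ | ⟨t, ht⟩
  · refine ⟨a * t, Or.inl ?_⟩
    rw [Lg_conj_Lg h]
    congr 1
    have h1 : b + (a * t) ^ (2 ^ (m + 1)) * a + a ^ (2 ^ (m + 1)) * (a * t) = b + κ * (t ^ (2 ^ (m + 1)) + t) := by
      rw [← hc t]
      ring
    rw [h1, ht]
    field_simp
    have h2 := h.add_self b
    linear_combination h2
  · refine ⟨a * t, Or.inr ?_⟩
    rw [Lg_inv h, Lg_conj_Lg h]
    congr 1
    have h1 : b + a ^ (2 ^ (m + 1)) * a + (a * t) ^ (2 ^ (m + 1)) * a + a ^ (2 ^ (m + 1)) * (a * t) =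
        b + κ + κ * (t ^ (2 ^ (m + 1)) + t) := by
      rw [← hc t, hκ]
      ring
    rw [h1, ht]
    field_simp
    have h2 := h.add_self b
    have h3 := h.add_self κ
    linear_combination h2 + h3

/-- Square roots of an involution in the normaliser of a torus. -/
theorem exists_sqrt {z y : G F m} (hz : IsInv z) (hy : y ∈ Yt z) {w₀ : Om F m} (hw₀ : z • w₀ = w₀) :
    ∃ u : G F m, u ∈ Subgroup.normalizer ((cent y : Subgroup (G F m)) : Set (G F m)) ∧ u * u = z ∧
      ∀ v ∈ Subgroup.normalizer ((cent y : Subgroup (G F m)) : Set (G F m)), v * v = z → v = u ∨ v = u⁻¹ := by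
  classical
  obtain ⟨hf, hc⟩ := hy
  have hy1 := Fpf.ne_one h hf
  have hP := isPart_tor h hf
  have h4 : y ^ 4 ≠ 1 := pow_four_ne_of_mem h hP (mem_cent_self h y) hy1
  have hT : IsTor (cent y) := ⟨y, hf, rfl⟩
  have hzN := (mem_norm_iff h h4).mpr hc
  have hzi := inv_inv_eq hz
  have hz4 := hz.pow_four
  set N := Subgroup.normalizer ((cent y : Subgroup (G F m)) : Set (G F m)) with hN
  have hcardT : Nat.card (N ⊓ MulAction.stabilizer (G F m) w₀ : Subgroup (G F m)) = 4 :=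
    card_T h hP (card_norm_tor h hT) hzN hz.1 hz4 hw₀
  set T : Subgroup (G F m) := N ⊓ MulAction.stabilizer (G F m) w₀ with hTdef
  have hT4 : ∀ t ∈ T, t ^ 4 = 1 := by
    rintro t ⟨ht1, ht2⟩
    rcases mem_normalizer_cases h hP ht1 with h1 | h1
    · rw [part_inf_stab h hP hzN hz.1 hz4 hw₀ h1 ht2]
      simp
    · exact h1
  have hzT : z ∈ T := ⟨hzN, hw₀⟩
  -- an element of order four
  obtain ⟨u, huT, hu2⟩ : ∃ u ∈ T, u * u ≠ 1 := by
    by_contra hcon
    push Not at hcon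
    have hlt : ({1, z} : Set (G F m)).ncard < ((T : Subgroup (G F m)) : Set (G F m)).ncard := by
      have h1 : ((T : Subgroup (G F m)) : Set (G F m)).ncard = 4 := by
        rw [← Nat.card_coe_set_eq]
        exact hcardT
      rw [h1]
      exact lt_of_le_of_lt (Set.ncard_insert_le _ _) (by simp)
    obtain ⟨t, htT, htn⟩ := Set.exists_mem_notMem_of_ncard_lt_ncard hlt (Set.toFinite _)
    have ht1 : t ≠ 1 := fun he => htn (by simp [he])
    have htz : t ≠ z := fun he => htn (by simp [he])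
    have hti : IsInv t := ⟨ht1, hcon t htT⟩
    have htN : t ∈ N := htT.1
    have hcy : cm t y := (mem_norm_iff h h4).mp htN
    have e1 := invert h hti h4 hcy
    have e2 := invert h hz h4 hc
    have h5 : t * z ∈ cent y := by
      apply mem_cent.mpr
      have e3 : t * z * y = (t * (z * y * z⁻¹) * t⁻¹) * (t * z) := by group
      rw [e3, e2]
      have e4 : t * y⁻¹ * t⁻¹ = (t * y * t⁻¹)⁻¹ := by group
      rw [e4, e1, inv_inv]
    have h6 : t * z ∈ T := T.mul_mem htT hzT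
    have h7 := eq_one_of_mem_part h hP h5 (hT4 _ h6)
    apply htz
    have e5 : t = t * z * z⁻¹ := by group
    rw [e5, h7, one_mul, hzi]
  have hu4 := hT4 u huT
  have hu2' : u ^ 2 ≠ 1 := by
    rw [pow_two]
    exact hu2
  have ho : orderOf u = 4 := by
    have := orderOf_eq_prime_pow (p := 2) (n := 1) (x := u) (by simpa using hu2') (by simpa using hu4)
    simpa using this
  have hzp : Subgroup.zpowers u = T := by
    apply Subgroup.eq_of_le_of_card_ge
    · rw [Subgroup.zpowers_le]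
      exact huT
    · rw [hcardT, Nat.card_zpowers, ho]
  have hcases : ∀ t ∈ T, t = 1 ∨ t = u ∨ t = u * u ∨ t = u⁻¹ := by
    intro t ht
    rw [← hzp] at ht
    obtain ⟨i, rfl⟩ := ht
    have hi : i % 4 = 0 ∨ i % 4 = 1 ∨ i % 4 = 2 ∨ i % 4 = 3 := by omega
    have e : u ^ i = u ^ (i % (orderOf u : ℤ)) := (zpow_mod_orderOf u i).symm
    rw [ho] at e
    change u ^ i = _ ∨ u ^ i = _ ∨ u ^ i = _ ∨ u ^ i = _
    rw [e]
    have e4 : (4 : ℕ) = 4 := rfl
    have hc4 : (((4 : ℕ) : ℤ)) = 4 := rfl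
    rw [hc4]
    rcases hi with hi | hi | hi | hi
    · left
      rw [hi, zpow_zero]
    · right; left
      rw [hi, zpow_one]
    · right; right; left
      rw [hi]
      exact zpow_two u
    · right; right; right
      rw [hi]
      apply eq_inv_of_mul_eq_one_left
      have e5 : u ^ (3 : ℤ) * u = u ^ (4 : ℕ) := by
        rw [← zpow_natCast, ← zpow_add_one]
        rfl
      rw [e5, hu4]
  have hzu : z = u * u := by
    rcases hcases z hzT with h1 | h1 | h1 | h1
    · exact absurd h1 hz.1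
    · exfalso
      apply hu2
      rw [← h1]
      exact hz.2
    · exact h1
    · exfalso
      apply hu2
      have h2 := hz.2
      rw [h1] at h2
      have e6 : u⁻¹ * u⁻¹ = (u * u)⁻¹ := by group
      rw [e6] at h2
      exact inv_eq_one.mp h2
  refine ⟨u, huT.1, hzu.symm, ?_⟩
  intro v hvN hvv
  have hv4 : v ^ 4 = 1 := by
    have e : v ^ 4 = (v * v) * (v * v) := by
      rw [pow_succ, pow_succ, pow_succ, pow_one, mul_assoc, mul_assoc]
    rw [e, hvv, hz.2]
  have hv1 : v ≠ 1 := by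
    rintro rfl
    rw [mul_one] at hvv
    exact hz.1 hvv.symm
  obtain ⟨w₁, hw₁⟩ := fix_exists h hv4
  have hzw₁ : z • w₁ = w₁ := by
    rw [← hvv, mul_smul, hw₁, hw₁]
  have hw₁₀ := fix_unique h hz.1 hz4 hzw₁ hw₀
  subst hw₁₀
  rcases hcases v ⟨hvN, hw₁⟩ with h1 | h1 | h1 | h1
  · exact absurd h1 hv1
  · exact Or.inl h1
  · exfalso
    rw [h1] at hvv
    rw [four_eq, hu4] at hvv
    exact hz.1 hvv.symm
  · exact Or.inr h1

/-- The square of the conjugate of `L(a,e)`. -/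
theorem Ue_sq (g : G F m) (a e : F) :
    (g * Lg h a e * g⁻¹) * (g * Lg h a e * g⁻¹) = g * Lg h 0 (a ^ (2 ^ (m + 1)) * a) * g⁻¹ := by
  rw [← Lg_sq h a e]
  group

/-- The number of `e` such that the conjugate of `L(a,e)` normalises a given torus. -/
theorem fibre_two {g : G F m} {a : F} (ha : a ≠ 0) {y : G F m}
    (hy : y ∈ Yt (g * Lg h 0 (a ^ (2 ^ (m + 1)) * a) * g⁻¹)) :
    {e : F | e ∈ (Set.univ : Set F) ∧ cm (g * Lg h a e * g⁻¹) y}.ncard = 2 := by
  set κ := a ^ (2 ^ (m + 1)) * a with hκ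
  have hκ0 : κ ≠ 0 := mul_ne_zero (pow_ne_zero _ ha) ha
  set z := g * Lg h 0 κ * g⁻¹ with hzd
  have hz : IsInv z := isInv_conj_zero h hκ0
  set w₀ : Om F m := g • oI with hw₀d
  have hw₀ : z • w₀ = w₀ := by
    rw [hzd, hw₀d, mul_smul, mul_smul, inv_smul_smul, Lg_oI h]
  obtain ⟨u, huN, huu, huniq⟩ := exists_sqrt h hz hy hw₀
  have hf := hy.1
  have hy1 := Fpf.ne_one h hf
  have hP := isPart_tor h hf
  have h4 : y ^ 4 ≠ 1 := pow_four_ne_of_mem h hP (mem_cent_self h y) hy1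
  have hu4 : u ^ 4 = 1 := by
    have e : u ^ 4 = (u * u) * (u * u) := by
      rw [pow_succ, pow_succ, pow_succ, pow_one, mul_assoc, mul_assoc]
    rw [e, huu, hz.2]
  have hu1 : u ≠ 1 := by
    rintro rfl
    rw [mul_one] at huu
    exact hz.1 huu.symm
  obtain ⟨w₁, hw₁⟩ := fix_exists h hu4
  have hzw₁ : z • w₁ = w₁ := by
    rw [← huu, mul_smul, hw₁, hw₁]
  have hw₁₀ := fix_unique h hz.1 hz.pow_four hzw₁ hw₀
  rw [hw₁₀] at hw₁
  -- `u` is a conjugate of `L(a,d)`
  have huU : u ∈ Uw h w₀ := (mem_Uw h).mpr ⟨hw₁, hu4⟩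
  rw [Uw_eq h (x := g) rfl] at huU
  obtain ⟨_, ⟨c, d, rfl⟩, hud⟩ := huU
  have hud' : g * Lg h c d * g⁻¹ = u := hud
  have hca : c = a := by
    have h1 := Ue_sq h g c d
    rw [hud', huu, hzd] at h1
    have h2 : Lg h 0 κ = Lg h 0 (c ^ (2 ^ (m + 1)) * c) := by
      have e1 : Lg h 0 κ = g⁻¹ * (g * Lg h 0 κ * g⁻¹) * g := by group
      rw [e1, h1]
      group
    have h3 := (Lg_inj h h2).2
    exact (pow_sg_mul_self_inj h h3).symm
  subst hca
  have hinv : g * Lg h c (d + κ) * g⁻¹ = u⁻¹ := by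
    have e : (Lg h c d)⁻¹ = Lg h c (d + κ) := Lg_inv h c d
    rw [← hud', ← e]
    group
  have hset : {e : F | e ∈ (Set.univ : Set F) ∧ cm (g * Lg h c e * g⁻¹) y} = {d, d + κ} := by
    ext e
    constructor
    · rintro ⟨-, hc'⟩
      have hN := (mem_norm_iff h h4).mpr hc'
      rcases huniq _ hN (Ue_sq h g c e) with h1 | h1
      · left
        have h2 : Lg h c e = Lg h c d := by
          have e1 : Lg h c e = g⁻¹ * (g * Lg h c e * g⁻¹) * g := by group
          rw [e1, h1, ← hud']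
          group
        exact (Lg_inj h h2).2
      · right
        have h2 : Lg h c e = Lg h c (d + κ) := by
          have e1 : Lg h c e = g⁻¹ * (g * Lg h c e * g⁻¹) * g := by group
          rw [e1, h1, ← hinv]
          group
        exact (Lg_inj h h2).2
    · rintro (rfl | rfl)
      · refine ⟨Set.mem_univ _, ?_⟩
        rw [hud']
        exact (mem_norm_iff h h4).mp huN
      · refine ⟨Set.mem_univ _, ?_⟩
        rw [hinv]
        exact (mem_norm_iff h h4).mp (Subgroup.inv_mem _ huN)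
  rw [hset, Set.ncard_pair]
  intro hc'
  apply hκ0
  linear_combination (-1 : F) * hc'

/-- The count of `Yt` for elements of order four. -/
theorem Yt_four {g : G F m} {a b : F} (ha : a ≠ 0) :
    (Yt (g * Lg h a b * g⁻¹)).ncard = Fintype.card F ^ 2 := by
  set x := g * Lg h a b * g⁻¹ with hx
  set κ := a ^ (2 ^ (m + 1)) * a with hκ
  have hκ0 : κ ≠ 0 := mul_ne_zero (pow_ne_zero _ ha) ha
  set z := g * Lg h 0 κ * g⁻¹ with hzd
  have hz : IsInv z := isInv_conj_zero h hκ0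
  set w₀ : Om F m := g • oI with hw₀d
  have hw₀ : z • w₀ = w₀ := by
    rw [hzd, hw₀d, mul_smul, mul_smul, inv_smul_smul, Lg_oI h]
  have hcount : ∀ e : F, e ∈ (Set.univ : Set F) →
      {y | y ∈ Yt z ∧ cm (g * Lg h a e * g⁻¹) y}.ncard = (Yt x).ncard := by
    intro e _
    have hset : {y | y ∈ Yt z ∧ cm (g * Lg h a e * g⁻¹) y} = Yt (g * Lg h a e * g⁻¹) := by
      ext y
      constructor
      · rintro ⟨⟨hf, -⟩, hc⟩
        exact ⟨hf, hc⟩
      · rintro ⟨hf, hc⟩
        refine ⟨⟨hf, ?_⟩, hc⟩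
        have h4 : y ^ 4 ≠ 1 := pow_four_ne_of_mem h (isPart_tor h hf) (mem_cent_self h y) (Fpf.ne_one h hf)
        have hN := (mem_norm_iff h h4).mpr hc
        have hzz : z = (g * Lg h a e * g⁻¹) * (g * Lg h a e * g⁻¹) := (Ue_sq h g a e).symm
        apply (mem_norm_iff h h4).mp
        rw [hzz]
        exact Subgroup.mul_mem _ hN hN
    rw [hset]
    obtain ⟨c, hc | hc⟩ := conj_cover h ha b e
    · have e1 : g * Lg h a e * g⁻¹ = (g * Lg h c 0 * g⁻¹) * x * (g * Lg h c 0 * g⁻¹)⁻¹ := by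
        rw [← hc, hx]
        group
      rw [e1, Yt_conj]
    · have e1 : g * Lg h a e * g⁻¹ = (g * Lg h c 0 * g⁻¹) * x⁻¹ * (g * Lg h c 0 * g⁻¹)⁻¹ := by
        rw [← hc, hx]
        group
      rw [e1, Yt_conj, Yt_inv]
  have h1 := Solub4.double_count (Set.univ : Set F) (Yt z) (fun e y => cm (g * Lg h a e * g⁻¹) y)
    hcount (fun y hy => fibre_two h ha hy)
  rw [Set.ncard_univ, Nat.card_eq_fintype_card, mul_comm _ 2, two_Yt h hz hw₀] at h1
  have hq : 0 < Fintype.card F := Fintype.card_pos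
  have h2 : Fintype.card F * (Yt x).ncard = Fintype.card F * Fintype.card F ^ 2 := by
    rw [h1]
    ring
  exact Nat.eq_of_mul_eq_mul_left hq h2

/-- `Yd` vanishes for elements of order four. -/
theorem Yd_four {x : G F m} (hx4 : x ^ 4 = 1) (hx2 : x * x ≠ 1) : Yd x = ∅ := by
  rw [Set.eq_empty_iff_forall_notMem]
  rintro y ⟨hf, h4, hc⟩
  have hy1 : y ≠ 1 := by
    rintro rfl
    simp at h4
  have hP := part_cent h h4
  have hxN := (mem_norm_iff h h4).mpr hc
  rcases part_cases h hP with ⟨g, hg⟩ | hT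
  · have hN : Nat.card (Subgroup.normalizer ((cent y : Subgroup (G F m)) : Set (G F m))) ≤ 2 * Nat.card (cent y) := by
      rw [hg]
      exact (card_norm_D h g).le
    have hT4 : ∀ t ∈ Subgroup.zpowers x, t ^ 4 = 1 := by
      rintro _ ⟨i, rfl⟩
      change (x ^ i) ^ 4 = 1
      rw [← zpow_natCast, ← zpow_mul, mul_comm, zpow_mul, zpow_natCast, hx4, one_zpow]
    have hle := card_le_of_pow_four h hP hN hT4 (Subgroup.zpowers_le.mpr hxN)
    rw [Nat.card_zpowers] at hle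
    have ho : orderOf x = 4 := by
      have := orderOf_eq_prime_pow (p := 2) (n := 1) (x := x) (by simpa [pow_two] using hx2) (by simpa using hx4)
      simpa using this
    omega
  · obtain ⟨g, hg, he⟩ := hT
    exact hf (Fpf.of_mem_cent h hg (he ▸ mem_cent_self h y) hy1)

/-- The form of an element of order four. -/
theorem four_form {x : G F m} (hx4 : x ^ 4 = 1) (hx2 : x * x ≠ 1) :
    ∃ (g : G F m) (a b : F), a ≠ 0 ∧ x = g * Lg h a b * g⁻¹ := by
  have hx1 : x ≠ 1 := by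
    rintro rfl
    simp at hx2
  obtain ⟨w, hw⟩ := fix_exists h hx4
  have hU : x ∈ Uw h w := (mem_Uw h).mpr ⟨hw, hx4⟩
  rw [Uw_eq h (x := mv h w) (mv_spec h w)] at hU
  obtain ⟨_, ⟨a, b, rfl⟩, he⟩ := hU
  have he' : mv h w * Lg h a b * (mv h w)⁻¹ = x := he
  refine ⟨mv h w, a, b, ?_, he'.symm⟩
  rintro rfl
  apply hx2
  rw [← he', Ue_sq h, zero_pow_sg h, zero_mul, Lg_zero h]
  group

/-- The solubiliser of an element of order four. -/
theorem sol_four (hp : (2 * m + 1).Prime) {x : G F m} (hx4 : x ^ 4 = 1) (hx2 : x * x ≠ 1) :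
    (Sol x).ncard = Fintype.card F ^ 2 * (Fintype.card F + 3) := by
  obtain ⟨g, a, b, ha, hx⟩ := four_form h hx4 hx2
  have hx1 : x ≠ 1 := by
    rintro rfl
    simp at hx2
  obtain ⟨w₀, hw₀⟩ := fix_exists h hx4
  rw [sol_card h hp hx1 hx4 hw₀, Yd_four h hx4 hx2, Set.ncard_empty, hx, Yt_four h ha]
  have hq : 2 ≤ Fintype.card F := Fintype.one_lt_card
  obtain ⟨R, hR⟩ : ∃ R, Fintype.card F = R + 1 := ⟨Fintype.card F - 1, by omega⟩
  rw [hR]
  have e2 : R + 1 - 1 = R := by omega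
  rw [e2]
  ring

end Cfsg.Agent.Lib.Suzuki.Solub5
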