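import Cfsg.Agent.Lib.Suzuki.Solub5

/-! The solubilisers of elements of odd order, and the final statement for the group `G F m`. -/

set_option autoImplicit false
set_option linter.unusedSectionVars false
set_option linter.deprecated false
set_option linter.unusedSimpArgs false

namespace Cfsg.Agent.Lib.Suzuki.Solub6

open Cfsg.Agent.Lib.Suzuki.Basic Cfsg.Agent.Lib.Suzuki.Group Cfsg.Agent.Lib.Suzuki.Struct
  Cfsg.Agent.Lib.Suzuki.Order Cfsg.Agent.Lib.Suzuki.Zass Cfsg.Agent.Lib.Suzuki.Sub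
  Cfsg.Agent.Lib.Suzuki.Syl Cfsg.Agent.Lib.Suzuki.Gen Cfsg.Agent.Lib.Suzuki.Fix
  Cfsg.Agent.Lib.Suzuki.Cent Cfsg.Agent.Lib.Suzuki.Types Cfsg.Agent.Lib.Suzuki.Tori1
  Cfsg.Agent.Lib.Suzuki.Tori2 Cfsg.Agent.Lib.Suzuki.Tori3 Cfsg.Agent.Lib.Suzuki.Part
  Cfsg.Agent.Lib.Suzuki.SubAbs Cfsg.Agent.Lib.Suzuki.SubG Cfsg.Agent.Lib.Suzuki.SubOdd
  Cfsg.Agent.Lib.Suzuki.SubMain Cfsg.Agent.Lib.Suzuki.SubEmb Cfsg.Agent.Lib.Suzuki.Classify
  Cfsg.Agent.Lib.Suzuki.Fixity Cfsg.Agent.Lib.Suzuki.Solub Cfsg.Agent.Lib.Suzuki.Solub2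
  Cfsg.Agent.Lib.Suzuki.Solub3 Cfsg.Agent.Lib.Suzuki.Solub4 Cfsg.Agent.Lib.Suzuki.Solub5
open scoped Pointwise BigOperators commutatorElement

variable {F : Type*} [Field F] [Fintype F] {m : ℕ} (h : Hyp F m)
include h

/-- An element of order dividing an odd number has `x⁴ ≠ 1` unless it is trivial. -/
theorem pow_four_ne_of_odd_dvd {x : G F m} (hx1 : x ≠ 1) {n : ℕ} (hn : Odd n) (hd : orderOf x ∣ n) : x ^ 4 ≠ 1 := by
  intro h4
  have h6 := Nat.Coprime.eq_one_of_dvd (coprime_four_of_odd (hn.of_dvd_nat hd)) (orderOf_dvd_of_pow_eq_one h4)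
  exact hx1 (orderOf_eq_one_iff.mp h6)

/-- Elements of order dividing `q - 1` are conjugate into `D`. -/
theorem form_D {x : G F m} (hx1 : x ≠ 1) (hd : orderOf x ∣ 2 ^ (2 * m + 1) - 1) :
    ∃ (g : G F m) (k : Fˣ), k ≠ 1 ∧ x = g * Dg h k * g⁻¹ := by
  have H := nums h.hm
  have h4 := pow_four_ne_of_odd_dvd h hx1 H.codd hd
  rcases trichotomy h hx1 with ⟨y, a, b, hne, he⟩ | ⟨g, k, hk, he⟩ | hf
  · exfalso
    apply h4
    rw [he]
    exact conj_U_pow_four h ⟨a, b, rfl⟩
  · exact ⟨g, k, hk, he⟩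
  · exfalso
    have hd' : orderOf x ∣ Nat.card (cent x) := Subgroup.orderOf_dvd_natCard _ (mem_cent_self h x)
    rcases card_tor h ⟨cent x, x, hf, rfl⟩ with h1 | h1
    · have h1' : Nat.card (cent x) = _ := h1
      rw [h1'] at hd'
      exact hx1 (orderOf_eq_one_iff.mp (Nat.eq_one_of_dvd_coprimes H.cop_ca hd hd'))
    · have h1' : Nat.card (cent x) = _ := h1
      rw [h1'] at hd'
      exact hx1 (orderOf_eq_one_iff.mp (Nat.eq_one_of_dvd_coprimes H.cop_cb hd hd'))

/-- The solubiliser of a conjugate of an element of `D`. -/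
theorem sol_D (hp : (2 * m + 1).Prime) {g : G F m} {k : Fˣ} (hk : k ≠ 1) :
    (Sol (g * Dg h k * g⁻¹)).ncard = 2 * Fintype.card F ^ 2 * (Fintype.card F - 1) := by
  classical
  set x := g * Dg h k * g⁻¹ with hx
  set w₁ : Om F m := g • oI with hw₁
  set w₂ : Om F m := g • oA 0 0 with hw₂
  have hne : w₁ ≠ w₂ := fun hc => oI_ne_zero h (smul_left_cancel _ hc)
  set X := (Dsub h).map (MulAut.conj g).toMonoidHom with hXd
  have hXp : IsPart X := isPart_D h g
  have hxX : x ∈ X := conj_mem_map h ⟨k, rfl⟩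
  have hx1 : x ≠ 1 := by
    intro hc
    apply hk
    apply Dg_inj h
    have e : Dg h k = g⁻¹ * x * g := by rw [hx]; group
    rw [e, hc, Dg_one h]
    group
  have h4 : x ^ 4 ≠ 1 := pow_four_ne_of_mem h hXp hxX hx1
  have hXc := eq_cent h hXp.1 hXp.2 hxX hx1
  have hfix1 : ∀ y ∈ X, y • w₁ = w₁ := by
    rintro _ ⟨_, ⟨u, rfl⟩, rfl⟩
    change (g * Dg h u * g⁻¹) • (g • (oI : Om F m)) = g • oI
    exact conj_fix (Dg_oI h u)
  have hfix2 : ∀ y ∈ X, y • w₂ = w₂ := by
    rintro _ ⟨_, ⟨u, rfl⟩, rfl⟩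
    change (g * Dg h u * g⁻¹) • (g • (oA 0 0 : Om F m)) = g • oA 0 0
    have h1 : Dg h u • (oA 0 0 : Om F m) = oA 0 0 := by
      rw [Dg_oA h]
      simp
    exact conj_fix h1
  have hmemX : ∀ y : G F m, y • w₁ = w₁ → y • w₂ = w₂ → y ∈ X := by
    intro y h1 h2
    have h3 : (g⁻¹ * y * g) • (oI : Om F m) = oI := by
      rw [mul_smul, mul_smul, ← hw₁, h1, hw₁, inv_smul_smul]
    have h5 : (g⁻¹ * y * g) • (oA 0 0 : Om F m) = oA 0 0 := by
      rw [mul_smul, mul_smul, ← hw₂, h2, hw₂, inv_smul_smul]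
    obtain ⟨u, hu⟩ := eq_Dg_of_fix h _ h3 h5
    exact (mem_map_conj h).mpr ⟨u, hu⟩
  set S₁ : Set (G F m) := (MulAction.stabilizer (G F m) w₁ : Set (G F m)) with hS₁
  set S₂ : Set (G F m) := (MulAction.stabilizer (G F m) w₂ : Set (G F m)) with hS₂
  set N : Subgroup (G F m) := Subgroup.normalizer (X : Set (G F m)) with hN
  -- the description of the solubiliser
  have hsol : Sol x = (S₁ ∪ S₂) ∪ ((N : Set (G F m)) \ (X : Set (G F m))) := by
    ext y
    change _root_.Group.IsSolvable _ ↔ _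
    rw [sol_iff h hp]
    constructor
    · rintro (⟨w, hw, hy⟩ | ⟨X', hX', hxN, hyN⟩)
      · have h1 : Dg h k • (g⁻¹ • w) = g⁻¹ • w := (smul_eq_iff_eq_inv_smul g).mp (by
          rw [hx, mul_smul, mul_smul] at hw
          exact hw)
        rcases Dg_fix h hk h1 with h2 | h2
        · left; left
          have h3 : w = w₁ := by rw [hw₁, ← h2, smul_inv_smul]
          rw [h3] at hy
          exact hy
        · left; right
          have h3 : w = w₂ := by rw [hw₂, ← h2, smul_inv_smul]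
          rw [h3] at hy
          exact hy
      · have hxX' : x ∈ X' := by
          rcases mem_normalizer_cases h hX' hxN with h1 | h1
          · exact h1
          · exact absurd h1 h4
        have hXX' : X' = X := by
          rw [eq_cent h hX'.1 hX'.2 hxX' hx1, ← hXc]
        rw [hXX'] at hyN
        by_cases hyX : y ∈ X
        · left; left
          exact hfix1 y hyX
        · right
          exact ⟨hyN, hyX⟩
    · rintro ((hy | hy) | ⟨hy, -⟩)
      · exact Or.inl ⟨w₁, hfix1 x hxX, hy⟩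
      · exact Or.inl ⟨w₂, hfix2 x hxX, hy⟩
      · exact Or.inr ⟨X, hXp, Subgroup.le_normalizer hxX, hy⟩
  have hq : 2 ≤ Fintype.card F := Fintype.one_lt_card
  have hX_card : Nat.card X = Fintype.card F - 1 := by
    rw [hXd, card_map_conj h, card_Dsub h]
  have hS₁c : S₁.ncard = Fintype.card F ^ 2 * (Fintype.card F - 1) := by
    rw [← card_stab h w₁, ← Nat.card_coe_set_eq]
    rfl
  have hS₂c : S₂.ncard = Fintype.card F ^ 2 * (Fintype.card F - 1) := by
    rw [← card_stab h w₂, ← Nat.card_coe_set_eq]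
    rfl
  have hinter : S₁ ∩ S₂ = (X : Set (G F m)) := by
    ext y
    constructor
    · rintro ⟨h1, h2⟩
      exact hmemX y h1 h2
    · intro hy
      exact ⟨hfix1 y hy, hfix2 y hy⟩
  have hXc' : (X : Set (G F m)).ncard = Fintype.card F - 1 := by
    rw [← hX_card, ← Nat.card_coe_set_eq]
    rfl
  have hunion : (S₁ ∪ S₂).ncard + (Fintype.card F - 1) = 2 * (Fintype.card F ^ 2 * (Fintype.card F - 1)) := by
    have h1 := Set.ncard_union_add_ncard_inter S₁ S₂ (Set.toFinite _) (Set.toFinite _)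
    rw [hinter, hXc', hS₁c, hS₂c] at h1
    omega
  have hNX : ((N : Set (G F m)) \ (X : Set (G F m))).ncard = Fintype.card F - 1 := by
    have h1 := card_norm_D h g
    rw [← hXd, hX_card] at h1
    rw [Set.ncard_diff (Subgroup.le_normalizer) (Set.toFinite _), hXc', ← Nat.card_coe_set_eq]
    change Nat.card N - _ = _
    rw [hN, h1]
    omega
  have hdisj : Disjoint (S₁ ∪ S₂) ((N : Set (G F m)) \ (X : Set (G F m))) := by
    rw [Set.disjoint_left]
    rintro y hy ⟨hyN, hyX⟩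
    -- `y` normalises `X`, and fixes one of the two points
    have hconj : y * x * y⁻¹ ∈ X := (Subgroup.mem_normalizer_iff.mp hyN x).mp hxX
    have hconj1 : y * x * y⁻¹ ≠ 1 := by
      intro hc
      apply hx1
      have e : x = y⁻¹ * (y * x * y⁻¹) * y := by group
      rw [e, hc]
      group
    have hthree : ∀ w w' : Om F m, w ≠ w' → y • w = w → w' = w₁ ∨ w' = w₂ → (y * x * y⁻¹) • w = w →
        (y * x * y⁻¹) • w' = w' → y • w' = w' := by
      intro w w' hww' hyw _ h1 h2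
      by_contra hc
      have h3 : (y * x * y⁻¹) • (y • w') = y • w' := by
        have h5 : x • w' = w' := by
          rcases ‹w' = w₁ ∨ w' = w₂› with rfl | rfl
          · exact hfix1 x hxX
          · exact hfix2 x hxX
        rw [mul_smul, mul_smul, inv_smul_smul, h5]
      have h6 : w ≠ y • w' := by
        intro he
        apply hww'
        rw [← hyw] at he
        exact smul_left_cancel _ he
      exact hconj1 (eq_one_of_fix_three h _ hww' (Ne.symm hc) h6 h1 h2 h3)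
    rcases hy with hy | hy
    · have hy' : y • w₁ = w₁ := hy
      have h1 := hthree w₁ w₂ hne hy' (Or.inr rfl) (hfix1 _ hconj) (hfix2 _ hconj)
      exact hyX (hmemX y hy' h1)
    · have hy' : y • w₂ = w₂ := hy
      have h1 := hthree w₂ w₁ (Ne.symm hne) hy' (Or.inl rfl) (hfix2 _ hconj) (hfix1 _ hconj)
      exact hyX (hmemX y h1 hy')
  rw [hsol, Set.ncard_union_eq hdisj (Set.toFinite _) (Set.toFinite _), hNX, hunion]
  ring

/-- The solubiliser of a fixed-point-free element. -/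
theorem sol_F (hp : (2 * m + 1).Prime) {x : G F m} (hf : Fpf x) :
    (Sol x).ncard = 4 * Nat.card (cent x) := by
  have hx1 := Fpf.ne_one h hf
  have hXp := isPart_tor h hf
  have h4 : x ^ 4 ≠ 1 := pow_four_ne_of_mem h hXp (mem_cent_self h x) hx1
  have hsol : Sol x = (Subgroup.normalizer ((cent x : Subgroup (G F m)) : Set (G F m)) : Set (G F m)) := by
    ext y
    change _root_.Group.IsSolvable _ ↔ _
    rw [sol_iff h hp]
    constructor
    · rintro (⟨w, hw, -⟩ | ⟨X', hX', hxN, hyN⟩)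
      · exact absurd hw (hf w)
      · have hxX' : x ∈ X' := by
          rcases mem_normalizer_cases h hX' hxN with h1 | h1
          · exact h1
          · exact absurd h1 h4
        have hXX' : X' = cent x := eq_cent h hX'.1 hX'.2 hxX' hx1
        subst hXX'
        exact hyN
    · intro hy
      exact Or.inr ⟨cent x, hXp, Subgroup.le_normalizer (mem_cent_self h x), hy⟩
  rw [hsol, ← Nat.card_coe_set_eq]
  exact tor_normalizer h ⟨cent x, x, hf, rfl⟩

/-- Elements of order dividing `q + s + 1` are fixed-point-free, with centraliser of that order. -/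
theorem form_a {x : G F m} (hx1 : x ≠ 1) (hd : orderOf x ∣ 2 ^ (2 * m + 1) + 2 ^ (m + 1) + 1) :
    Fpf x ∧ Nat.card (cent x) = 2 ^ (2 * m + 1) + 2 ^ (m + 1) + 1 := by
  have H := nums h.hm
  have h4 := pow_four_ne_of_odd_dvd h hx1 H.aodd hd
  rcases trichotomy h hx1 with ⟨y, a, b, hne, he⟩ | ⟨g, k, hk, he⟩ | hf
  · exfalso
    apply h4
    rw [he]
    exact conj_U_pow_four h ⟨a, b, rfl⟩
  · exfalso
    have h1 : x ∈ (Dsub h).map (MulAut.conj g).toMonoidHom := by
      rw [he]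
      exact conj_mem_map h ⟨k, rfl⟩
    have hd' := Subgroup.orderOf_dvd_natCard _ h1
    rw [card_map_conj h, card_Dsub h, h.hF] at hd'
    exact hx1 (orderOf_eq_one_iff.mp (Nat.eq_one_of_dvd_coprimes H.cop_ca hd' hd))
  · refine ⟨hf, ?_⟩
    have hd' : orderOf x ∣ Nat.card (cent x) := Subgroup.orderOf_dvd_natCard _ (mem_cent_self h x)
    rcases card_tor h ⟨cent x, x, hf, rfl⟩ with h1 | h1
    · exact h1
    · exfalso
      have h1' : Nat.card (cent x) = _ := h1
      rw [h1'] at hd'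
      exact hx1 (orderOf_eq_one_iff.mp (Nat.eq_one_of_dvd_coprimes H.cop_ab hd hd'))

/-- Elements of order dividing `q - s + 1` are fixed-point-free, with centraliser of that order. -/
theorem form_b {x : G F m} (hx1 : x ≠ 1) (hd : orderOf x ∣ 2 ^ (2 * m + 1) - 2 ^ (m + 1) + 1) :
    Fpf x ∧ Nat.card (cent x) = 2 ^ (2 * m + 1) - 2 ^ (m + 1) + 1 := by
  have H := nums h.hm
  have h4 := pow_four_ne_of_odd_dvd h hx1 H.bodd hd
  rcases trichotomy h hx1 with ⟨y, a, b, hne, he⟩ | ⟨g, k, hk, he⟩ | hf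
  · exfalso
    apply h4
    rw [he]
    exact conj_U_pow_four h ⟨a, b, rfl⟩
  · exfalso
    have h1 : x ∈ (Dsub h).map (MulAut.conj g).toMonoidHom := by
      rw [he]
      exact conj_mem_map h ⟨k, rfl⟩
    have hd' := Subgroup.orderOf_dvd_natCard _ h1
    rw [card_map_conj h, card_Dsub h, h.hF] at hd'
    exact hx1 (orderOf_eq_one_iff.mp (Nat.eq_one_of_dvd_coprimes H.cop_cb hd' hd))
  · refine ⟨hf, ?_⟩
    have hd' : orderOf x ∣ Nat.card (cent x) := Subgroup.orderOf_dvd_natCard _ (mem_cent_self h x)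
    rcases card_tor h ⟨cent x, x, hf, rfl⟩ with h1 | h1
    · exfalso
      have h1' : Nat.card (cent x) = _ := h1
      rw [h1'] at hd'
      exact hx1 (orderOf_eq_one_iff.mp (Nat.eq_one_of_dvd_coprimes H.cop_ab.symm hd hd'))
    · exact h1

/-- The final statement for the group `G F m`. -/
theorem sol_main (hp : (2 * m + 1).Prime) (x : G F m) :
    (orderOf x = 2 → (Sol x).ncard = (2 ^ (2 * m + 1)) ^ 2 * (4 * 2 ^ (2 * m + 1) - 3)) ∧
    (orderOf x = 4 → (Sol x).ncard = (2 ^ (2 * m + 1)) ^ 2 * (2 ^ (2 * m + 1) + 3)) ∧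
    (x ≠ 1 → orderOf x ∣ 2 ^ (2 * m + 1) - 1 →
      (Sol x).ncard = 2 * (2 ^ (2 * m + 1)) ^ 2 * (2 ^ (2 * m + 1) - 1)) ∧
    (x ≠ 1 → orderOf x ∣ 2 ^ (2 * m + 1) + 2 ^ (m + 1) + 1 →
      (Sol x).ncard = 4 * (2 ^ (2 * m + 1) + 2 ^ (m + 1) + 1)) ∧
    (x ≠ 1 → orderOf x ∣ 2 ^ (2 * m + 1) - 2 ^ (m + 1) + 1 →
      (Sol x).ncard = 4 * (2 ^ (2 * m + 1) - 2 ^ (m + 1) + 1)) := by
  refine ⟨?_, ?_, ?_, ?_, ?_⟩
  · intro ho
    have hz : IsInv x := by
      refine ⟨?_, ?_⟩
      · rintro rfl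
        simp at ho
      · rw [← pow_two, ← ho]
        exact pow_orderOf_eq_one x
    rw [sol_inv h hp hz, h.hF]
  · intro ho
    have hx4 : x ^ 4 = 1 := by
      have h1 := pow_orderOf_eq_one x
      rwa [ho] at h1
    have hx2 : x * x ≠ 1 := by
      intro hc
      have h1 : orderOf x ∣ 2 := orderOf_dvd_of_pow_eq_one (by rw [pow_two]; exact hc)
      rw [ho] at h1
      omega
    rw [Solub5.sol_four h hp hx4 hx2, h.hF]
  · intro hx1 hd
    obtain ⟨g, k, hk, rfl⟩ := form_D h hx1 hd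
    rw [sol_D h hp hk, h.hF]
  · intro hx1 hd
    obtain ⟨hf, hc⟩ := form_a h hx1 hd
    rw [sol_F h hp hf, hc]
  · intro hx1 hd
    obtain ⟨hf, hc⟩ := form_b h hx1 hd
    rw [sol_F h hp hf, hc]

end Cfsg.Agent.Lib.Suzuki.Solub6
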